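import Cfsg.Agent.H41.JM.F9
import Cfsg.Agent.H860.JM.Seven

/-!
# F7: the generators of a pure 2A four-group are in a common point
-/

set_option autoImplicit false

namespace Cfsg.Agent.H41.JM

open Cfsg.Agent.H860.JM

/-- **F7** -/
theorem f7 : F7 geo := f7_of f9_pt

end Cfsg.Agent.H41.JM
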