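import Cfsg.Agent.H41.JM.F9Same
import Cfsg.Agent.H860.JM.Basic

/-!
# The two kinds of 2A elements in `N(P)` outside `P` (fact F9)
-/

set_option autoImplicit false

open Cfsg

namespace Cfsg.Agent.H41.JM

open Cfsg.Agent.H860.JM Cfsg.Agent.H41.JM.Cls Cfsg.Agent.H41.JM.Two
open Cfsg.Agent.J4.Invol Cfsg.Agent.H858.VK

/-- F9, and `w` is in a common point with every `v ∈ F_w` -/
theorem f9_all (hN : Subgroup.normalizer (EJ : Set Cfsg.Spor.J4) ≤ Cfsg.Agent.H858.FixJ4.B) :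
    F9 geo ∧ ∀ P w, geo.Pt P → Act geo P w → ∀ v ∈ Fs geo P w,
      ∃ P', geo.Pt P' ∧ v ∈ P' ∧ w ∈ P' :=
  f9_of cInv EJ (fun _ h => h) w₁ w₂ Kind.KA₁ Kind.KB₂ Kind.Cp₂ (fun _ => classify hN)
    (Same.same hN) (fun _ hw h => cent₂ hw h) (fun a ha b hb => EJ_comm rho_injective a b ha hb)

/-- **F9** -/
theorem f9 : F9 geo := (f9_all NEJ_eq.le).1

/-- every `v ∈ F_w` is in a common point with `w` -/
theorem f9_pt : ∀ P w, geo.Pt P → Act geo P w → ∀ v ∈ Fs geo P w,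
    ∃ P', geo.Pt P' ∧ v ∈ P' ∧ w ∈ P' := (f9_all NEJ_eq.le).2

end Cfsg.Agent.H41.JM
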