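import Cfsg.Agent.H860.JM.Geom

/-!
# Invariance of the 2-local geometry under conjugation
-/

set_option autoImplicit false

namespace Cfsg.Agent.H41.JM

open Cfsg.Agent.H860.JM

variable {G : Type*} [Group G]

/-- the data are invariant under conjugation -/
structure CInv (Γ : Geom G) : Prop where
  A_conj : ∀ g u, Γ.A u → Γ.A (g * u * g⁻¹)
  Pt_conj : ∀ g P, Γ.Pt P → Γ.Pt (cj g P)
  Ln_conj : ∀ g D, Γ.Ln D → Γ.Ln (cj g D)

variable {Γ : Geom G}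

theorem mem_cj {g : G} {H : Subgroup G} {x : G} : x ∈ cj g H ↔ g⁻¹ * x * g ∈ H := by
  constructor
  · rintro ⟨y, hy, rfl⟩
    have : g⁻¹ * ((MulAut.conj g).toMonoidHom y) * g = y := by
      show g⁻¹ * (g * y * g⁻¹) * g = y
      group
    rw [this]; exact hy
  · intro h
    refine ⟨_, h, ?_⟩
    show g * (g⁻¹ * x * g) * g⁻¹ = x
    group

theorem conj_mem_cj {g : G} {H : Subgroup G} {x : G} (h : x ∈ H) : g * x * g⁻¹ ∈ cj g H :=
  ⟨x, h, rfl⟩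

theorem conj_mem_cj_iff {g : G} {H : Subgroup G} {x : G} : g * x * g⁻¹ ∈ cj g H ↔ x ∈ H := by
  rw [mem_cj]
  have : g⁻¹ * (g * x * g⁻¹) * g = x := by group
  rw [this]

theorem cj_cj (g h : G) (H : Subgroup G) : cj g (cj h H) = cj (g * h) H := by
  ext x
  rw [mem_cj, mem_cj, mem_cj]
  have : h⁻¹ * (g⁻¹ * x * g) * h = (g * h)⁻¹ * x * (g * h) := by group
  rw [this]

theorem cj_one (H : Subgroup G) : cj 1 H = H := by
  ext x
  rw [mem_cj]
  simp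

theorem cj_inv_cj (g : G) (H : Subgroup G) : cj g⁻¹ (cj g H) = H := by
  rw [cj_cj, inv_mul_cancel, cj_one]

theorem cj_cj_inv (g : G) (H : Subgroup G) : cj g (cj g⁻¹ H) = H := by
  rw [cj_cj, mul_inv_cancel, cj_one]

theorem conj_inv_conj (g x : G) : g⁻¹ * (g * x * g⁻¹) * g⁻¹⁻¹ = x := by group

theorem cj_eq_of_mem_normalizer {g : G} {H : Subgroup G}
    (h : g ∈ Subgroup.normalizer (H : Set G)) : cj g H = H := by
  ext x
  rw [mem_cj]
  have h1 := Subgroup.mem_normalizer_iff.1 h (g⁻¹ * x * g)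
  have e : g * (g⁻¹ * x * g) * g⁻¹ = x := by group
  rw [e] at h1
  exact h1

theorem mem_normalizer_cj {g w : G} {H : Subgroup G}
    (h : w ∈ Subgroup.normalizer (H : Set G)) :
    g * w * g⁻¹ ∈ Subgroup.normalizer (cj g H : Set G) := by
  rw [Subgroup.mem_normalizer_iff]
  intro x
  rw [mem_cj, mem_cj]
  have h1 := Subgroup.mem_normalizer_iff.1 h (g⁻¹ * x * g)
  have e : w * (g⁻¹ * x * g) * w⁻¹ = g⁻¹ * (g * w * g⁻¹ * x * (g * w * g⁻¹)⁻¹) * g := by group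
  rw [e] at h1
  exact h1

section

variable (hΓ : CInv Γ)

include hΓ

theorem A_iff (g u : G) : Γ.A (g * u * g⁻¹) ↔ Γ.A u := by
  constructor
  · intro h
    have h1 := hΓ.A_conj g⁻¹ _ h
    rwa [conj_inv_conj] at h1
  · exact hΓ.A_conj g u

theorem tyA_conj {z w : G} (g : G) (h : TyA Γ z w) : TyA Γ (g * z * g⁻¹) (g * w * g⁻¹) := by
  obtain ⟨D, hD, hz, hw⟩ := h
  exact ⟨cj g D, hΓ.Ln_conj g D hD, conj_mem_cj hz, conj_mem_cj hw⟩

theorem tyA_conj_iff {z w : G} (g : G) :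
    TyA Γ (g * z * g⁻¹) (g * w * g⁻¹) ↔ TyA Γ z w := by
  constructor
  · intro h
    have h1 := tyA_conj hΓ g⁻¹ h
    rwa [conj_inv_conj, conj_inv_conj] at h1
  · exact tyA_conj hΓ g

theorem Fs_conj {P : Subgroup G} {w v : G} (g : G) (h : v ∈ Fs Γ P w) :
    g * v * g⁻¹ ∈ Fs Γ (cj g P) (g * w * g⁻¹) := by
  obtain ⟨h1, h2, h3⟩ := h
  refine ⟨conj_mem_cj h1, ?_, ?_⟩
  · have e1 : g * v * g⁻¹ * (g * w * g⁻¹) = g * (v * w) * g⁻¹ := by group
    have e2 : g * w * g⁻¹ * (g * v * g⁻¹) = g * (w * v) * g⁻¹ := by group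
    rw [e1, e2, h2]
  · rcases h3 with rfl | ⟨h3, h4⟩
    · left; group
    · right
      refine ⟨hΓ.A_conj g _ h3, ?_⟩
      have e1 : g * v * g⁻¹ * (g * w * g⁻¹) = g * (v * w) * g⁻¹ := by group
      rw [e1]
      exact hΓ.A_conj g _ h4

theorem Fs_conj_iff {P : Subgroup G} {w v : G} (g : G) :
    g * v * g⁻¹ ∈ Fs Γ (cj g P) (g * w * g⁻¹) ↔ v ∈ Fs Γ P w := by
  constructor
  · intro h
    have h1 := Fs_conj hΓ g⁻¹ h
    rwa [conj_inv_conj, conj_inv_conj, cj_inv_cj] at h1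
  · exact Fs_conj hΓ g

theorem Fs_conj_eq (P : Subgroup G) (w g : G) :
    Fs Γ (cj g P) (g * w * g⁻¹) = (fun v => g * v * g⁻¹) '' Fs Γ P w := by
  ext v
  constructor
  · intro h
    refine ⟨g⁻¹ * v * g, ?_, ?_⟩
    · rw [← Fs_conj_iff hΓ g]
      have e : g * (g⁻¹ * v * g) * g⁻¹ = v := by group
      rw [e]; exact h
    · show g * (g⁻¹ * v * g) * g⁻¹ = v
      group
  · rintro ⟨u, hu, rfl⟩
    exact Fs_conj hΓ g hu

theorem ncard_Fs_conj (P : Subgroup G) (w g : G) :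
    (Fs Γ (cj g P) (g * w * g⁻¹)).ncard = (Fs Γ P w).ncard := by
  rw [Fs_conj_eq hΓ]
  apply Set.ncard_image_of_injective
  intro a b h
  exact mul_left_cancel (mul_right_cancel h)

theorem act_conj {P : Subgroup G} {w : G} (g : G) (h : Act Γ P w) :
    Act Γ (cj g P) (g * w * g⁻¹) where
  mem := mem_normalizer_cj h.mem
  not_mem := fun hw => h.not_mem (conj_mem_cj_iff.1 hw)
  A := hΓ.A_conj g w h.A

theorem isX_conj {P : Subgroup G} {w x : G} (g : G) (h : IsX Γ P w x) :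
    IsX Γ (cj g P) (g * w * g⁻¹) (g * x * g⁻¹) where
  mem := Fs_conj hΓ g h.mem
  ne := fun h1 => h.ne (by
    have h2 := conj_inv_conj g x
    rw [h1] at h2
    rw [← h2]; group)
  tyA := tyA_conj hΓ g h.tyA

theorem KA_conj {P : Subgroup G} {w : G} (g : G) (h : KA Γ P w) :
    KA Γ (cj g P) (g * w * g⁻¹) where
  act := act_conj hΓ g h.act
  card := by rw [ncard_Fs_conj hΓ]; exact h.card
  tyA := by
    rw [Fs_conj_eq hΓ]
    rintro _ ⟨v, hv, rfl⟩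
    exact tyA_conj hΓ g (h.tyA v hv)
  pt := by
    rw [Fs_conj_eq hΓ]
    rintro _ ⟨v, hv, rfl⟩ _ ⟨v', hv', rfl⟩
    obtain ⟨P', h1, h2, h3, h4⟩ := h.pt v hv v' hv'
    exact ⟨cj g P', hΓ.Pt_conj g P' h1, conj_mem_cj h2, conj_mem_cj h3, conj_mem_cj h4⟩
  mul := by
    rw [Fs_conj_eq hΓ]
    rintro _ ⟨v, hv, rfl⟩ _ ⟨v', hv', rfl⟩
    refine ⟨v * v', h.mul v hv v' hv', ?_⟩
    show g * (v * v') * g⁻¹ = g * v * g⁻¹ * (g * v' * g⁻¹)
    group

theorem KB_conj {P : Subgroup G} {w : G} (g : G) (h : KB Γ P w) :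
    KB Γ (cj g P) (g * w * g⁻¹) where
  act := act_conj hΓ g h.act
  card := by rw [ncard_Fs_conj hΓ]; exact h.card
  ex := by
    obtain ⟨x, h1, h2, h3⟩ := h.ex
    refine ⟨g * x * g⁻¹, isX_conj hΓ g h1, ?_, ?_⟩
    · intro y hy
      have h4 := isX_conj hΓ g⁻¹ hy
      rw [cj_inv_cj, conj_inv_conj] at h4
      have h5 := h2 _ h4
      rw [← h5]; group
    · rw [Fs_conj_eq hΓ]
      rintro _ ⟨v, hv, rfl⟩
      exact tyA_conj hΓ g (h3 v hv)

end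

/-- every `v ∈ F_w` is in a common point with `w` -/
def Cp (Γ : Geom G) (P : Subgroup G) (w : G) : Prop :=
  ∀ v ∈ Fs Γ P w, ∃ P', Γ.Pt P' ∧ v ∈ P' ∧ w ∈ P'

theorem Cp_conj (hΓ : CInv Γ) {P : Subgroup G} {w : G} (g : G) (h : Cp Γ P w) :
    Cp Γ (cj g P) (g * w * g⁻¹) := by
  unfold Cp
  rw [Fs_conj_eq hΓ]
  rintro _ ⟨v, hv, rfl⟩
  obtain ⟨P', h1, h2, h3⟩ := h v hv
  exact ⟨cj g P', hΓ.Pt_conj g P' h1, conj_mem_cj h2, conj_mem_cj h3⟩

theorem KA_not_KB {P : Subgroup G} {w : G} (h : KA Γ P w) (h' : KB Γ P w) : False := by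
  have h1 := h.card
  rw [h'.card] at h1
  norm_num at h1

/-- The reduction of `F9` to two representatives `w₁`, `w₂` at the point `E`. -/
theorem f9_of (hΓ : CInv Γ) (E : Subgroup G) (hPt : ∀ P, Γ.Pt P → ∃ g, P = cj g E) (w₁ w₂ : G)
    (hA : KA Γ E w₁) (hB : KB Γ E w₂) (hC : Cp Γ E w₂)
    (hcl : ∀ w, Act Γ E w → ∃ c ∈ Subgroup.normalizer (E : Set G),
      c * w * c⁻¹ = w₁ ∨ c * w * c⁻¹ = w₂)
    (hsame : ∀ c ∈ Subgroup.normalizer (E : Set G), Fs Γ E (c * w₁ * c⁻¹) = Fs Γ E w₁ →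
      w₁⁻¹ * (c * w₁ * c⁻¹) ∈ E)
    (hcent : ∀ w, Act Γ E w → w₂⁻¹ * w ∈ E → ∃ r ∈ E, r * w * r⁻¹ = w₂)
    (hcomm : ∀ a ∈ E, ∀ b ∈ E, a * b = b * a) :
    F9 Γ ∧ ∀ P w, Γ.Pt P → Act Γ P w → Cp Γ P w := by
  have hkind : ∀ P w, Γ.Pt P → Act Γ P w →
      ∃ g, P = cj g E ∧ (w = g * w₁ * g⁻¹ ∨ w = g * w₂ * g⁻¹) := by
    intro P w hP hw
    obtain ⟨g, rfl⟩ := hPt P hP
    have h1 := act_conj hΓ g⁻¹ hw
    rw [cj_inv_cj] at h1
    obtain ⟨c, hc, h2⟩ := hcl _ h1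
    refine ⟨g * c⁻¹, ?_, ?_⟩
    · rw [← cj_cj, cj_eq_of_mem_normalizer (Subgroup.inv_mem _ hc)]
    · rcases h2 with h2 | h2
      · left; rw [← h2]; group
      · right; rw [← h2]; group
  refine ⟨⟨?_, ?_, ?_⟩, ?_⟩
  · intro P w hP hw
    obtain ⟨g, rfl, rfl | rfl⟩ := hkind P w hP hw
    · exact Or.inl (KA_conj hΓ g hA)
    · exact Or.inr (KB_conj hΓ g hB)
  · intro P w w' hP hw hw' heq
    obtain ⟨g, rfl, rfl | rfl⟩ := hkind P w hP hw.act
    · have h1 := act_conj hΓ g⁻¹ hw'.act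
      rw [cj_inv_cj] at h1
      obtain ⟨c, hc, h2⟩ := hcl _ h1
      set u := g⁻¹ * w' * g⁻¹⁻¹ with hu
      have hw'' : w' = g * u * g⁻¹ := by rw [hu]; group
      rcases h2 with h2 | h2
      · have h3 : u = c⁻¹ * w₁ * c⁻¹⁻¹ := by rw [← h2]; group
        have h4 := hsame c⁻¹ (Subgroup.inv_mem _ hc)
        rw [← h3] at h4
        have h5 : Fs Γ E u = Fs Γ E w₁ := by
          rw [hw''] at heq
          ext v
          rw [← Fs_conj_iff (w := u) hΓ g, ← heq, Fs_conj_iff hΓ g]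
        have h6 := h4 h5
        have e : (g * w₁ * g⁻¹)⁻¹ * w' = g * (w₁⁻¹ * u) * g⁻¹ := by rw [hw'']; group
        rw [e]
        exact conj_mem_cj h6
      · exfalso
        have h3 : u = c⁻¹ * w₂ * c⁻¹⁻¹ := by rw [← h2]; group
        have h4 : KB Γ E u := by
          rw [h3]
          have h5 := KB_conj hΓ c⁻¹ hB
          rwa [cj_eq_of_mem_normalizer (Subgroup.inv_mem _ hc)] at h5
        have h6 := KB_conj hΓ g h4
        rw [← hw''] at h6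
        exact KA_not_KB hw' h6
    · exact absurd (KB_conj hΓ g hB) fun h => KA_not_KB hw h
  · intro P w w' x x' hP hw hw' hmem hx hx'
    obtain ⟨g, rfl, rfl | rfl⟩ := hkind P w hP hw.act
    · exact absurd (KA_conj hΓ g hA) fun h => KA_not_KB h hw
    · have h1 := act_conj hΓ g⁻¹ hw'.act
      rw [cj_inv_cj] at h1
      set u := g⁻¹ * w' * g⁻¹⁻¹ with hu
      have hw'' : w' = g * u * g⁻¹ := by rw [hu]; group
      have h2 : w₂⁻¹ * u ∈ E := by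
        rw [← conj_mem_cj_iff (g := g)]
        have e : g * (w₂⁻¹ * u) * g⁻¹ = (g * w₂ * g⁻¹)⁻¹ * w' := by rw [hw'']; group
        rw [e]; exact hmem
      obtain ⟨r, hr, h3⟩ := hcent u h1 h2
      obtain ⟨z, -, hz, -⟩ := hB.ex
      -- the element of `w`
      have h4 := isX_conj hΓ g⁻¹ hx
      rw [cj_inv_cj, conj_inv_conj] at h4
      have h5 := hz _ h4
      -- the element of `w'`
      have h6 := isX_conj hΓ g⁻¹ hx'
      rw [cj_inv_cj, ← hu] at h6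
      have h7 := isX_conj hΓ r h6
      rw [cj_eq_of_mem_normalizer (Subgroup.le_normalizer hr), h3] at h7
      have h8 := hz _ h7
      have h9 : g⁻¹ * x' * g⁻¹⁻¹ ∈ E := h6.mem.1
      have h10 : r * (g⁻¹ * x' * g⁻¹⁻¹) * r⁻¹ = g⁻¹ * x' * g⁻¹⁻¹ := by
        rw [hcomm r hr _ h9]; group
      rw [h10, ← h5] at h8
      exact (mul_left_cancel (mul_right_cancel h8)).symm
  · intro P w hP hw
    obtain ⟨g, rfl, rfl | rfl⟩ := hkind P w hP hw
    · refine Cp_conj hΓ g fun v hv => ?_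
      obtain ⟨P', h1, h2, -, h3⟩ := hA.pt v hv v hv
      exact ⟨P', h1, h2, h3⟩
    · exact Cp_conj hΓ g hC

end Cfsg.Agent.H41.JM
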