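import Cfsg.Agent.H860.JM.Defs
import Cfsg.Agent.H41.JM.F9Abs

/-!
# The classes of the involutions `V v` and `V v * phi σ`
-/

set_option autoImplicit false

open Cfsg

namespace Cfsg.Agent.H41.JM.Cls

open Cfsg.Agent.Lib Cfsg.Agent.Lib.F2MatGroup
open Cfsg.Agent.J4.Rep112 Cfsg.Agent.J4.Pres Cfsg.Agent.J4.M24Hom Cfsg.Agent.J4.Nodes
open Cfsg.Agent.J4.Beta Cfsg.Agent.J4.Classes Cfsg.Agent.J4.ClassesData Cfsg.Agent.J4.Invol
open Cfsg.Agent.J4.Lower Cfsg.Agent.J4.LowerData Cfsg.Agent.J4.ClassesAbs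
open Cfsg.Agent.J4.M24InvolData
open Cfsg.Agent.H858.VK
open Cfsg.Agent.H858.Data hiding eqsC
open Cfsg.Agent.H860.JM

/-- the involution of `M24` of type 2A -/
noncomputable abbrev m₁ : M24 := Cfsg.Agent.SporadicStructure.M24El.el P1
/-- the involution of `M24` of type 2B -/
noncomputable abbrev m₂ : M24 := XM

theorem s_eq : s = V 1024 := rho_injective (by rw [rho_s, rho_V])
theorem d_eq : d = V 5 := rho_injective (by rw [rho_d, rho_V])

theorem A_of_conj {g u : Cfsg.Spor.J4} (h : g * u * g⁻¹ = V 1024) : geo.A u := by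
  show IsConj s u
  rw [s_eq, isConj_iff]
  exact ⟨g⁻¹, by rw [← h]; group⟩

theorem B_of_conj {g u : Cfsg.Spor.J4} (h : g * u * g⁻¹ = V 5) : geo.B u := by
  show IsConj d u
  rw [d_eq, isConj_iff]
  exact ⟨g⁻¹, by rw [← h]; group⟩

theorem not_A_of_B {u : Cfsg.Spor.J4} (h : geo.B u) : ¬ geo.A u := by
  intro h1
  have h2 : IsConj s u := h1
  have h3 : IsConj d u := h
  exact not_isConj_s_d (h2.trans h3.symm)

theorem cInv : CInv geo where
  A_conj := by
    intro g u h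
    have h1 : IsConj s u := h
    show IsConj s (g * u * g⁻¹)
    exact h1.trans (isConj_iff.2 ⟨g, rfl⟩)
  Pt_conj := by
    rintro g _ ⟨h, rfl⟩
    exact ⟨g * h, cj_cj g h _⟩
  Ln_conj := by
    rintro g _ ⟨h, rfl⟩
    exact ⟨g * h, cj_cj g h _⟩

theorem B_conj {u : Cfsg.Spor.J4} (g : Cfsg.Spor.J4) (h : geo.B u) : geo.B (g * u * g⁻¹) := by
  have h1 : IsConj d u := h
  show IsConj d (g * u * g⁻¹)
  exact h1.trans (isConj_iff.2 ⟨g, rfl⟩)

/-! ### Elements of `EJ` -/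

theorem V_conj {v : ℕ} (hv : v < 2048) (h0 : v ≠ 0) : ∃ m : M24,
    V v = phi m * V (if tget pos 11 v < 1771 then 1024 else 5) * (phi m)⁻¹ := by
  have h1 := orb_ok
  unfold orbOk at h1
  rw [Bool.and_eq_true, Bool.and_eq_true, List.all_eq_true, List.all_eq_true] at h1
  have h2 := h1.1.2 v (List.mem_range.mpr hv)
  rw [Bool.or_eq_true, Nat.beq_eq, Bool.and_eq_true, Nat.blt_eq, Nat.beq_eq] at h2
  rcases h2 with h2 | ⟨h2, h3⟩
  · exact absurd h2 h0
  · obtain ⟨m, hm⟩ := conj_arr hyp _ h2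
    rw [h3] at hm
    refine ⟨m, rho_injective ?_⟩
    rw [map_mul, map_mul, map_inv, rho_V, rho_V]
    exact hm

/-- `V v` is of type 2A -/
def cA (v : ℕ) : Bool := Nat.blt (tget pos 11 v) 1771

theorem A_V {v : ℕ} (hv : v < 2048) (h0 : v ≠ 0) (h : cA v = true) : geo.A (V v) := by
  obtain ⟨m, hm⟩ := V_conj hv h0
  have h1 : tget pos 11 v < 1771 := by
    unfold cA at h; rwa [Nat.blt_eq] at h
  rw [if_pos h1] at hm
  exact A_of_conj (g := (phi m)⁻¹) (by rw [hm]; group)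

theorem B_V {v : ℕ} (hv : v < 2048) (h0 : v ≠ 0) (h : cA v = false) : geo.B (V v) := by
  obtain ⟨m, hm⟩ := V_conj hv h0
  have h1 : ¬ tget pos 11 v < 1771 := by
    intro h2
    rw [← Nat.blt_eq] at h2
    unfold cA at h
    rw [h2] at h
    exact absurd h (by decide)
  rw [if_neg h1] at hm
  exact B_of_conj (g := (phi m)⁻¹) (by rw [hm]; group)

theorem A_V_iff {v : ℕ} (hv : v < 2048) (h0 : v ≠ 0) : geo.A (V v) ↔ cA v = true := by
  constructor
  · intro h
    by_contra h1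
    rw [Bool.not_eq_true] at h1
    exact not_A_of_B (B_V hv h0 h1) h
  · exact A_V hv h0

/-! ### The representatives -/

/-- class of a representative -/
def repI (E : List (List ℕ × List ℕ)) (im v idx : ℕ) : Bool :=
  reps.any fun r => repOk E im v r && Nat.beq r.2.2.2.2.2.2 idx

theorem rep_conj {im v idx : ℕ} (h : repI eqsC im v idx = true) :
    ∃ g ∈ rho.range, g * (beta qs v * getG LC im) * g⁻¹ = getG LC idx := by
  unfold repI at h
  rw [List.any_eq_true] at h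
  obtain ⟨r, -, h⟩ := h
  rw [Bool.and_eq_true, Nat.beq_eq] at h
  obtain ⟨h, rfl⟩ := h
  unfold repOk at h
  rw [Bool.and_eq_true, Bool.and_eq_true, Bool.and_eq_true, List.contains_iff_mem,
    List.contains_iff_mem, List.contains_iff_mem, Bool.or_eq_true, Nat.beq_eq, Nat.beq_eq] at h
  obtain ⟨⟨⟨h1, h2⟩, h3⟩, h4⟩ := h
  have e1 := eqC _ h1
  have e2 := eqC _ h2
  have e3 := eqC _ h3
  simp only [evG_append, evG_single, abs_bw (L := LC) qs_length getG_LC] at e1
  simp only [evG_append, evG_single, evG_cons, evG_nil, mul_one] at e2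
  simp only [evG_append, evG_nil] at e3
  rw [← e1]
  have hp : getG LC r.2.2.2.1 ∈ rho.range := getG_mem _ LC_mem _
  have hw : evG LC r.2.2.2.2.2.1 ∈ rho.range := evG_mem _ LC_mem _
  have hw' : evG LC r.2.2.2.2.1 = (evG LC r.2.2.2.2.2.1)⁻¹ := eq_inv_of_mul_eq_one_left e3
  rw [hw'] at e2
  generalize getG LC r.2.2.1 = u at *
  generalize getG LC r.2.2.2.1 = p at *
  generalize evG LC r.2.2.2.2.2.1 = w at *
  refine ⟨w * p⁻¹, Subgroup.mul_mem _ hw (Subgroup.inv_mem _ hp), ?_⟩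
  have : w * p⁻¹ * u * (w * p⁻¹)⁻¹ = w * p⁻¹ * (u * p) * w⁻¹ := by group
  rw [this, e2]; group

theorem rep1_A : geo.A (V 0 * phi m₁) := by
  obtain ⟨_, ⟨g, rfl⟩, h⟩ := rep_conj (im := 41) (v := 0) (idx := 52) (by decide +kernel)
  rw [getG_41, getG_52] at h
  refine A_of_conj (g := g) (rho_injective ?_)
  rw [map_mul, map_mul, map_inv, map_mul, rho_V, rho_V]
  exact h

theorem rep1_B : ∀ v ∈ [34, 517, 551, 1047, 1077, 1554, 1584], geo.B (V v * phi m₁) := by
  have h0 : ([34, 517, 551, 1047, 1077, 1554, 1584].all fun v => repI eqsC 41 v 40) = true := by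
    decide +kernel
  intro v hv
  rw [List.all_eq_true] at h0
  obtain ⟨_, ⟨g, rfl⟩, h⟩ := rep_conj (h0 v hv)
  rw [getG_41, getG_40] at h
  refine B_of_conj (g := g) (rho_injective ?_)
  rw [map_mul, map_mul, map_inv, map_mul, rho_V, rho_V]
  exact h

theorem getG_55 : getG LC 55 = rho (phi m₂) := by
  rw [getX]; exact (congrArg rho phi_X).symm

theorem rep2_A : geo.A (V 5 * phi m₂) := by
  obtain ⟨_, ⟨g, rfl⟩, h⟩ := rep_conj (im := 55) (v := 5) (idx := 52) (by decide +kernel)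
  rw [getG_55, getG_52] at h
  refine A_of_conj (g := g) (rho_injective ?_)
  rw [map_mul, map_mul, map_inv, map_mul, rho_V, rho_V]
  exact h

theorem rep2_B : geo.B (V 0 * phi m₂) := by
  obtain ⟨_, ⟨g, rfl⟩, h⟩ := rep_conj (im := 55) (v := 0) (idx := 40) (by decide +kernel)
  rw [getG_55, getG_40] at h
  refine B_of_conj (g := g) (rho_injective ?_)
  rw [map_mul, map_mul, map_inv, map_mul, rho_V, rho_V]
  exact h

/-! ### The action of the two involutions -/

theorem actV₁ (v : ℕ) : phi m₁ * V v * (phi m₁)⁻¹ = V (lin A1 v) := by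
  apply rho_injective
  rw [map_mul, map_mul, map_inv, rho_V, rho_V]
  exact act1 v

theorem actV₂ (v : ℕ) : phi m₂ * V v * (phi m₂)⁻¹ = V (lin Ax v) := by
  apply rho_injective
  rw [map_mul, map_mul, map_inv, rho_V, rho_V]
  exact hyp.actX v

/-- conjugation by an element of `EJ` -/
theorem conj_V_mul {m : M24} {A : List ℕ} (hA : ∀ v, phi m * V v * (phi m)⁻¹ = V (lin A v))
    (v r : ℕ) : V r * (V v * phi m) * (V r)⁻¹ = V ((v ^^^ r) ^^^ lin A r) * phi m := by
  rw [V_xor, V_xor, ← hA, V_comm v r, V_inv]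
  calc V r * (V v * phi m) * V r = V r * V v * (phi m * V r * (phi m)⁻¹) * phi m := by group
    _ = _ := rfl

/-- table of the fixed vectors, with the commutators -/
def fixI (A : List ℕ) (T : List (ℕ × ℕ × ℕ)) (v0 : ℕ) (C : List ℕ) : Bool :=
  T.all fun t => (Nat.beq t.1 (Nat.xor (Nat.xor t.2.1 t.2.2) (lin A t.2.2))) &&
    (Nat.beq t.2.1 v0 == C.contains t.1)

/-- the commutators of `m₁` -/
def C1 : List ℕ := [0, 14, 119, 121, 183, 185, 192, 206, 262, 264, 369, 383, 433, 447, 454, 456]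
/-- the commutators of `m₂` -/
def C2 : List ℕ := [0, 10, 20, 30, 160, 170, 180, 190, 320, 330, 340, 350, 480, 490, 500, 510,
  1536, 1546, 1556, 1566, 1696, 1706, 1716, 1726, 1856, 1866, 1876, 1886, 2016, 2026, 2036, 2046]
/-- `C2` shifted by 5 -/
def C2' : List ℕ := [5, 15, 17, 27, 165, 175, 177, 187, 325, 335, 337, 347, 485, 495, 497, 507,
  1541, 1551, 1553, 1563, 1701, 1711, 1713, 1723, 1861, 1871, 1873, 1883, 2021, 2031, 2033, 2043]

theorem fixI_sound {A : List ℕ} {T : List (ℕ × ℕ × ℕ)} {vs : List ℕ} {v0 : ℕ} {C : List ℕ}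
    (h : fixOk A T vs = true) (h' : fixI A T v0 C = true) {v : ℕ} (hv : v < 2048)
    (hA : lin A v = v) : ∃ vj ∈ vs, ∃ r, v = (vj ^^^ r) ^^^ lin A r ∧ (vj = v0 ↔ v ∈ C) := by
  unfold fixOk at h
  rw [Bool.and_eq_true, List.all_eq_true] at h
  obtain ⟨h1, h2⟩ := h
  have h3 := h1 v (List.mem_range.mpr hv)
  rw [Bool.or_eq_true, List.any_eq_true] at h3
  rw [List.all_eq_true] at h2
  unfold fixI at h'
  rw [List.all_eq_true] at h'
  rcases h3 with h3 | ⟨t, ht, h4⟩
  · rw [hA, Nat.beq_refl] at h3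
    exact absurd h3 (by decide)
  · have h5 := h2 t ht
    rw [Bool.and_eq_true, List.any_eq_true, Nat.beq_eq] at h5
    obtain ⟨h5, w, hw, h6⟩ := h5
    rw [Nat.beq_eq] at h6 h4
    have h7 := h' t ht
    rw [Bool.and_eq_true, beq_iff_eq] at h7
    refine ⟨w, hw, t.2.2, ?_, ?_⟩
    · rw [h6, ← h4]
      exact h5
    · rw [h6, ← h4, ← Nat.beq_eq, h7.2, List.contains_iff_mem]

theorem fixI1 : fixI A1 fix1 0 C1 = true := by decide +kernel
theorem fixI2 : fixI Ax fix2 5 C2' = true := by decide +kernel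

/-- the 2A elements over `m₁` -/
theorem over₁ {v : ℕ} (hv : v < 2048) (hA : lin A1 v = v) :
    (geo.A (V v * phi m₁) ↔ v ∈ C1) ∧
    (v ∈ C1 → ∃ r, V r * phi m₁ * (V r)⁻¹ = V v * phi m₁) := by
  obtain ⟨vj, hvj, r, h1, h2⟩ := fixI_sound fix1_ok fixI1 hv hA
  have h3 := conj_V_mul actV₁ vj r
  rw [← h1] at h3
  have key : v ∈ C1 → V r * phi m₁ * (V r)⁻¹ = V v * phi m₁ := by
    intro h
    rw [← h3, h2.2 h, V_zero, one_mul]
  refine ⟨⟨fun h => ?_, fun h => ?_⟩, fun h => ⟨r, key h⟩⟩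
  · rw [← h2]
    by_contra h4
    have h5 : vj ∈ [34, 517, 551, 1047, 1077, 1554, 1584] := by
      rcases List.mem_cons.1 hvj with h6 | h6
      · exact absurd h6 h4
      · exact h6
    have h6 := B_conj (V r) (rep1_B vj h5)
    rw [h3] at h6
    exact not_A_of_B h6 h
  · rw [← key h]
    have h4 := rep1_A
    rw [V_zero, one_mul] at h4
    exact cInv.A_conj _ _ h4

/-- the 2A elements over `m₂` -/
theorem over₂ {v : ℕ} (hv : v < 2048) (hA : lin Ax v = v) :
    (geo.A (V v * phi m₂) ↔ v ∈ C2') ∧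
    (v ∈ C2' → ∃ r, V r * (V 5 * phi m₂) * (V r)⁻¹ = V v * phi m₂) := by
  obtain ⟨vj, hvj, r, h1, h2⟩ := fixI_sound fix2_ok fixI2 hv hA
  have h3 := conj_V_mul actV₂ vj r
  rw [← h1] at h3
  have key : v ∈ C2' → V r * (V 5 * phi m₂) * (V r)⁻¹ = V v * phi m₂ := by
    intro h
    rw [← h3, h2.2 h]
  refine ⟨⟨fun h => ?_, fun h => ?_⟩, fun h => ⟨r, key h⟩⟩
  · rw [← h2]
    by_contra h4
    have h5 : vj = 0 := by
      simp only [List.mem_cons, List.not_mem_nil, or_false] at hvj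
      rcases hvj with h6 | h6
      · exact h6
      · exact absurd h6 h4
    rw [h5] at h3
    have h6 := B_conj (V r) rep2_B
    rw [h3] at h6
    exact not_A_of_B h6 h
  · rw [← key h]
    exact cInv.A_conj _ _ rep2_A

end Cfsg.Agent.H41.JM.Cls
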