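import Cfsg.Agent.H858.Data
import Cfsg.Agent.Lib.F2Rank
import Cfsg.Agent.H41.JM.F9RankData

/-!
# Two pairs of elements of `2^11` which are not conjugate
-/

set_option autoImplicit false

open Cfsg

namespace Cfsg.Agent.H41.JM.Rank

open Cfsg.Agent.Lib Cfsg.Agent.Lib.F2Mat Cfsg.Agent.Lib.F2MatGroup Cfsg.Agent.Lib.F2Rank Matrix
open Cfsg.Agent.J4.Rep112 Cfsg.Agent.J4.LowerData Cfsg.Agent.J4.Lower Cfsg.Agent.J4.Beta
open Cfsg.Agent.J4.Classes
open Cfsg.Agent.H858.VK Cfsg.Agent.H858.Data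

/-- two pairs with a different number of common fixed vectors -/
theorem not_conj_pair {n a b : ℕ} (hab : n < a + b) {F : Matrix (Fin n) (Fin n) (ZMod 2)}
    (hF : a ≤ F.rank) {Z₁ Z₂ D₁ D₂ g : GL (Fin n) (ZMod 2)}
    (h₁ : F * (Z₁ : Matrix (Fin n) (Fin n) (ZMod 2)) = F)
    (h₂ : F * (Z₂ : Matrix (Fin n) (Fin n) (ZMod 2)) = F)
    {W₁ W₂ : Matrix (Fin n) (Fin n) (ZMod 2)}
    (hR : b ≤ (((D₁ : Matrix (Fin n) (Fin n) (ZMod 2)) + 1) * W₁ +
      ((D₂ : Matrix (Fin n) (Fin n) (ZMod 2)) + 1) * W₂).rank)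
    (e₁ : g * Z₁ * g⁻¹ = D₁) (e₂ : g * Z₂ * g⁻¹ = D₂) : False := by
  have key : ∀ Z D : GL (Fin n) (ZMod 2), F * (Z : Matrix (Fin n) (Fin n) (ZMod 2)) = F →
      g * Z * g⁻¹ = D → F * ((g⁻¹ : GL (Fin n) (ZMod 2)) : Matrix (Fin n) (Fin n) (ZMod 2)) *
      ((D : Matrix (Fin n) (Fin n) (ZMod 2)) + 1) = 0 := by
    intro Z D hZ hg
    have h5 : ((g⁻¹ : GL (Fin n) (ZMod 2)) : Matrix (Fin n) (Fin n) (ZMod 2)) *
        (D : Matrix (Fin n) (Fin n) (ZMod 2)) = (Z : Matrix (Fin n) (Fin n) (ZMod 2)) *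
        ((g⁻¹ : GL (Fin n) (ZMod 2)) : Matrix (Fin n) (Fin n) (ZMod 2)) := by
      rw [← hg, ← Units.val_mul, ← Units.val_mul]
      congr 1
      group
    rw [mul_add, mul_one, mul_assoc, h5, ← mul_assoc, hZ]
    ext i j
    rw [Matrix.add_apply, Matrix.zero_apply]
    exact CharTwo.add_self_eq_zero _
  have h3 := key Z₁ D₁ h₁ e₁
  have h4 := key Z₂ D₂ h₂ e₂
  have h5 : F * ((g⁻¹ : GL (Fin n) (ZMod 2)) : Matrix (Fin n) (Fin n) (ZMod 2)) *
      (((D₁ : Matrix (Fin n) (Fin n) (ZMod 2)) + 1) * W₁ +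
      ((D₂ : Matrix (Fin n) (Fin n) (ZMod 2)) + 1) * W₂) = 0 := by
    rw [mul_add, ← mul_assoc, ← mul_assoc, h3, h4, zero_mul, zero_mul, add_zero]
  have hr := rank_add_rank_le_card_of_mul_eq_zero h5
  rw [Fintype.card_fin] at hr
  have r1 : a ≤ (F * ((g⁻¹ : GL (Fin n) (ZMod 2)) : Matrix (Fin n) (Fin n) (ZMod 2))).rank := by
    have h6 : (F * ((g⁻¹ : GL (Fin n) (ZMod 2)) : Matrix (Fin n) (Fin n) (ZMod 2))) *
        (g : Matrix (Fin n) (Fin n) (ZMod 2)) = F := by
      rw [mul_assoc, ← Units.val_mul, inv_mul_cancel, Units.val_one, mul_one]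
    refine hF.trans ?_
    conv_lhs => rw [← h6]
    exact Matrix.rank_mul_le_left _ _
  omega

/-! ### The computation -/

/-- the word of a vector in the environment after `slpQ` -/
abbrev b0 (v : ℕ) : List ℕ := bw 11 0 v

/-- the checks -/
def chk (L : List ℕ) : Bool :=
  cond (Nat.beq (F2Mat.mul 112 RankData.F (evW 112 L (b0 165))) RankData.F)
    (cond (Nat.beq (F2Mat.mul 112 RankData.F (evW 112 L (b0 873))) RankData.F)
      (Nat.beq (F2Mat.mul 112 RankData.U
        (Nat.xor (F2Mat.mul 112 (Nat.xor (evW 112 L (b0 1495)) (F2Mat.one 112)) RankData.W1)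
          (F2Mat.mul 112 (Nat.xor (evW 112 L (b0 1942)) (F2Mat.one 112)) RankData.W2)))
        RankData.Eb) false) false

theorem checkR : run 112 slpQ codes chk = true := by decide +kernel

theorem getG_mgens {k : ℕ} (hk : k < 11) : getG (runG slpQ mgens) (0 + k) = qs.getD k 1 := by
  rw [Nat.zero_add]
  exact getG_take _ 11 k hk

theorem evG_b0 (v : ℕ) : evG (runG slpQ mgens) (b0 v) = rho (V v) := by
  have h := evG_bw (runG slpQ mgens) qs 0 v (by rw [qs_len]; exact fun i hi => getG_mgens hi)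
  rw [qs_len] at h
  rw [rho_V]
  exact h

theorem diagA : diagOk 112 40 RankData.Ea = true := by decide +kernel
theorem diagB : diagOk 112 73 RankData.Eb = true := by decide +kernel
theorem mulA : Nat.beq (F2Mat.mul 112 RankData.F RankData.W') RankData.Ea = true := by
  decide +kernel

theorem rank_F : 40 ≤ (toMat 112 RankData.F).rank := by
  calc 40 = (toMat 112 RankData.Ea).rank := (rank_diag (by norm_num) diagA).symm
    _ ≤ _ := by
      rw [← Nat.eq_of_beq_eq_true mulA, toMat_mul]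
      exact Matrix.rank_mul_le_left _ _

theorem matrices : ∃ W₁ W₂ : Matrix (Fin 112) (Fin 112) (ZMod 2),
    toMat 112 RankData.F * (rho (V 165) : Matrix (Fin 112) (Fin 112) (ZMod 2)) =
      toMat 112 RankData.F ∧
    toMat 112 RankData.F * (rho (V 873) : Matrix (Fin 112) (Fin 112) (ZMod 2)) =
      toMat 112 RankData.F ∧
    73 ≤ (((rho (V 1495) : Matrix (Fin 112) (Fin 112) (ZMod 2)) + 1) * W₁ +
      ((rho (V 1942) : Matrix (Fin 112) (Fin 112) (ZMod 2)) + 1) * W₂).rank := by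
  obtain ⟨L', h', hk⟩ := run_sound codes_gens checkR
  have hc : ∀ v, (rho (V v) : Matrix (Fin 112) (Fin 112) (ZMod 2)) =
      toMat 112 (evW 112 L' (b0 v)) := by
    intro v
    have h := codes_evW h' (b0 v)
    have h2 : evG (runG slpQ (List.map rho gens)) (b0 v) = rho (V v) := evG_b0 v
    rw [h2] at h
    exact h
  unfold chk at hk
  rcases hb : Nat.beq (F2Mat.mul 112 RankData.F (evW 112 L' (b0 165))) RankData.F with _ | _
  · rw [hb] at hk; exact absurd hk Bool.false_ne_true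
  rw [hb, cond_true] at hk
  rcases hb2 : Nat.beq (F2Mat.mul 112 RankData.F (evW 112 L' (b0 873))) RankData.F with _ | _
  · rw [hb2] at hk; exact absurd hk Bool.false_ne_true
  rw [hb2, cond_true] at hk
  refine ⟨toMat 112 RankData.W1, toMat 112 RankData.W2, ?_, ?_, ?_⟩
  · rw [hc, ← toMat_mul, Nat.eq_of_beq_eq_true hb]
  · rw [hc, ← toMat_mul, Nat.eq_of_beq_eq_true hb2]
  · have e1 : ∀ v, (rho (V v) : Matrix (Fin 112) (Fin 112) (ZMod 2)) + 1 =
        toMat 112 (Nat.xor (evW 112 L' (b0 v)) (F2Mat.one 112)) := by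
      intro v
      rw [hc, ← toMat_one]
      exact (toMat_xor 112 _ _).symm
    calc 73 = (toMat 112 RankData.Eb).rank := (rank_diag (by norm_num) diagB).symm
      _ ≤ _ := by
        rw [e1, e1, ← toMat_mul, ← toMat_mul, ← toMat_xor, ← Nat.eq_of_beq_eq_true hk]
        rw [toMat_mul]
        exact Matrix.rank_mul_le_right _ _

/-- The pair `V 1495`, `V 1942` is not conjugate to a pair in `⟨V 165, V 873⟩`. -/
theorem not_conj {z₁ z₂ : ℕ} (h₁ : z₁ ∈ [165, 873, 972]) (h₂ : z₂ ∈ [165, 873, 972])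
    (g : Cfsg.Spor.J4) (e₁ : g * V z₁ * g⁻¹ = V 1495) (e₂ : g * V z₂ * g⁻¹ = V 1942) : False := by
  obtain ⟨W₁, W₂, ha, hb, hR⟩ := matrices
  have hc : toMat 112 RankData.F * (rho (V 972) : Matrix (Fin 112) (Fin 112) (ZMod 2)) =
      toMat 112 RankData.F := by
    have h : V 972 = V 165 * V 873 := by rw [← V_xor]; rfl
    rw [h, map_mul, Units.val_mul, ← mul_assoc, ha, hb]
  have hall : ∀ z ∈ [165, 873, 972], toMat 112 RankData.F *
      (rho (V z) : Matrix (Fin 112) (Fin 112) (ZMod 2)) = toMat 112 RankData.F := by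
    intro z hz
    simp only [List.mem_cons, List.not_mem_nil, or_false] at hz
    rcases hz with rfl | rfl | rfl
    · exact ha
    · exact hb
    · exact hc
  refine not_conj_pair (a := 40) (b := 73) (by norm_num) rank_F (hall z₁ h₁) (hall z₂ h₂) hR
    (g := rho g) ?_ ?_
  · rw [← e₁, map_mul, map_mul, map_inv]
  · rw [← e₂, map_mul, map_mul, map_inv]

end Cfsg.Agent.H41.JM.Rank
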