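import Cfsg.Agent.H41.JM.F9Cls
import Cfsg.Agent.H41.JM.F9Rank
import Cfsg.Agent.H858.Loc7

/-!
# Computations for the two kinds of 2A elements
-/

set_option autoImplicit false

open Cfsg

namespace Cfsg.Agent.H41.JM.F9Data

open Cfsg.Agent.Lib Cfsg.Agent.Lib.F2MatGroup
open Cfsg.Agent.J4.Rep112 Cfsg.Agent.J4.Pres Cfsg.Agent.J4.M24Hom Cfsg.Agent.J4.Nodes
open Cfsg.Agent.J4.Beta Cfsg.Agent.J4.Classes Cfsg.Agent.J4.Invol
open Cfsg.Agent.J4.ClassesData (Ax Ay A1)
open Cfsg.Agent.J4.Lower Cfsg.Agent.J4.LowerData Cfsg.Agent.J4.ClassesAbs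
open Cfsg.Agent.H858.VK
open Cfsg.Agent.H858.Data hiding eqsC
open Cfsg.Agent.H860.JM
open Cfsg.Agent.H41.JM.Cls
open Cfsg.Agent.H41.JM.Rank (b0 getG_mgens)

/-- word of the first element -/
def wA : List ℕ := [16, 14, 13, 14, 13, 15, 13, 14, 13, 14, 13, 15, 13, 15, 13, 14, 13, 15, 13, 14,
  13, 14, 13, 14] ++ b0 4
/-- word of the second element -/
def wB : List ℕ := 16 :: (b0 2 ++ [15, 13, 14, 13, 15])

/-- the equations -/
def eqsW : List (List ℕ × List ℕ) := [
  (wA ++ b0 185, b0 165 ++ wA), (wA ++ b0 262, b0 1726 ++ wA),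
  (wA ++ w1.map (13 + ·), b0 1497 ++ wA),
  (wB ++ b0 20, b0 1394 ++ wB), (wB ++ b0 170, b0 1495 ++ wB),
  (wB ++ (b0 5 ++ [13]), b0 1942 ++ wB)]

theorem checkW : run 112 slpQ codes (fun L => eqs 112 eqsW L) = true := by decide +kernel

/-- the environment -/
noncomputable def LQ : List Cfsg.Spor.J4 := runG slpQ gens

theorem map_LQ : LQ.map rho = runG slpQ mgens := by
  unfold LQ mgens
  rw [runG_map]

theorem soundW : ∀ p ∈ eqsW, evG LQ p.1 = evG LQ p.2 := by
  obtain ⟨L', h', hk⟩ := run_sound codes_gens checkW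
  have h'' : List.Forall₂ (Codes 112) (LQ.map rho) L' := by rw [map_LQ]; exact h'
  intro p hp
  apply rho_injective
  rw [← evG_map, ← evG_map]
  exact eqs_sound h'' hk p hp

theorem getG_LQ {k : ℕ} (hk : k < 11) : getG LQ (0 + k) = lJ.getD k 1 := by
  rw [Nat.zero_add]
  exact getG_take _ 11 k hk

theorem evG_b0 (v : ℕ) : evG LQ (b0 v) = V v := by
  have h := evG_bw LQ lJ 0 v (by rw [lJ_length]; exact fun i hi => getG_LQ hi)
  rwa [lJ_length] at h

theorem q13 : getG LQ 13 = phi m₂ := phi_X.symm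
theorem q14 : getG LQ 14 = phi YM := phi_Y.symm
theorem q15 : getG LQ 15 = phi YM⁻¹ := by
  rw [map_inv, phi_Y]; rfl

theorem evG_w1 : evG LQ (w1.map (13 + ·)) = phi m₁ := by
  have h2 : evG LQ (w1.map (13 + ·)) = evG [phi XM, phi YM, phi YM⁻¹] w1 := by
    apply evG_shift
    intro i hi
    have h3 : i = 0 ∨ i = 1 ∨ i = 2 := by
      have : ∀ i ∈ w1, i = 0 ∨ i = 1 ∨ i = 2 := by decide
      exact this i hi
    rcases h3 with rfl | rfl | rfl
    · exact q13
    · exact q14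
    · exact q15
  rw [h2]
  show _ = phi (Cfsg.Agent.SporadicStructure.M24El.el Cfsg.Agent.J4.M24InvolData.P1)
  rw [el_P1, ← evG_map]
  rfl

/-- the first element -/
noncomputable def gA : Cfsg.Spor.J4 := evG LQ wA
/-- the second element -/
noncomputable def gB : Cfsg.Spor.J4 := evG LQ wB

theorem gA_185 : gA * V 185 * gA⁻¹ = V 165 := by
  have h := soundW (wA ++ b0 185, b0 165 ++ wA) (by decide +kernel)
  simp only [evG_append, evG_b0] at h
  exact mul_inv_eq_of_eq_mul h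

theorem gA_262 : gA * V 262 * gA⁻¹ = V 1726 := by
  have h := soundW (wA ++ b0 262, b0 1726 ++ wA) (by decide +kernel)
  simp only [evG_append, evG_b0] at h
  exact mul_inv_eq_of_eq_mul h

theorem gA_m : gA * phi m₁ * gA⁻¹ = V 1497 := by
  have h := soundW (wA ++ w1.map (13 + ·), b0 1497 ++ wA) (by decide +kernel)
  rw [evG_append, evG_append, evG_w1, evG_b0] at h
  exact mul_inv_eq_of_eq_mul h

theorem gB_20 : gB * V 20 * gB⁻¹ = V 1394 := by
  have h := soundW (wB ++ b0 20, b0 1394 ++ wB) (by decide +kernel)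
  simp only [evG_append, evG_b0] at h
  exact mul_inv_eq_of_eq_mul h

theorem gB_170 : gB * V 170 * gB⁻¹ = V 1495 := by
  have h := soundW (wB ++ b0 170, b0 1495 ++ wB) (by decide +kernel)
  simp only [evG_append, evG_b0] at h
  exact mul_inv_eq_of_eq_mul h

theorem gB_m : gB * (V 5 * phi m₂) * gB⁻¹ = V 1942 := by
  have h := soundW (wB ++ (b0 5 ++ [13]), b0 1942 ++ wB) (by decide +kernel)
  rw [evG_append, evG_append, evG_append, evG_b0, evG_b0, evG_single, q13] at h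
  exact mul_inv_eq_of_eq_mul h

/-! ### Elements of `M24` -/

/-- conjugation by a word -/
theorem conj_word {l M : List ℕ} (h : mat l = M) (v : ℕ) :
    phi (wordG l) * V v * (phi (wordG l))⁻¹ = V (lin M v) := by
  rw [← h]
  exact conj_V (isMat_word l) v

/-- word -/
def l7 : List ℕ := [1, 0, 2, 0, 2, 0, 2, 0, 2, 0, 1, 0, 2, 0, 2, 0, 2, 0, 1, 0, 2, 0, 1, 0, 1, 0, 2,
  0, 2, 0, 1, 0, 2, 0, 1, 0, 2, 0, 2, 0, 2, 0, 1, 0]
/-- matrix -/
def M7 : List ℕ := [284, 1731, 1754, 96, 955, 281, 726, 728, 465, 137, 181]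
/-- word -/
def la : List ℕ := [1, 0, 1, 0, 2, 0, 2, 0, 1, 0, 1, 0, 2, 0, 2, 0, 1, 0, 1]
/-- matrix -/
def Ma : List ℕ := [176, 772, 501, 1104, 481, 8, 1996, 2, 1906, 1765, 1957]
/-- word -/
def lb : List ℕ := [1, 0, 2, 0, 1, 0, 2, 0, 1, 0, 2, 0, 1, 0, 2, 0, 1, 0, 2, 0, 1, 0, 2]
/-- matrix -/
def Mb : List ℕ := [1727, 987, 1710, 1403, 1722, 851, 1948, 1369, 1654, 532, 1044]
/-- word -/
def lA : List ℕ := [2, 0, 2, 0, 1, 0, 2, 0, 1, 0, 1, 0, 2, 0, 1, 0, 1, 0, 1]
/-- matrix -/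
def MA : List ℕ := [1157, 1676, 2043, 1780, 359, 771, 188, 945, 833, 158, 1345]
/-- word -/
def lB : List ℕ := [2, 0, 1, 0, 1, 0, 1, 0, 1, 0, 1, 0, 2, 0, 2, 0, 2, 0, 2, 0, 2, 0, 1, 0]
/-- matrix -/
def MB : List ℕ := [990, 714, 1163, 1874, 1526, 885, 352, 1243, 1211, 1118, 606]
/-- word -/
def lC : List ℕ := [2, 0, 1, 0, 2]
/-- matrix -/
def MC : List ℕ := [190, 1240, 1132, 1024, 286, 1039, 1048, 256, 1261, 1, 872]

theorem mat7 : mat l7 = M7 := by decide +kernel
theorem mata : mat la = Ma := by decide +kernel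
theorem matb : mat lb = Mb := by decide +kernel
theorem matA : mat lA = MA := by decide +kernel
theorem matB : mat lB = MB := by decide +kernel
theorem matC : mat lC = MC := by decide +kernel

/-- the word of `m₁` -/
theorem m₁_eq : (m₁ : M24) = wordG w1 := by
  show Cfsg.Agent.SporadicStructure.M24El.el Cfsg.Agent.J4.M24InvolData.P1 = _
  rw [el_P1]
  have key : ∀ w : List ℕ, (∀ i ∈ w, i = 0 ∨ i = 1 ∨ i = 2) →
      evG [XM, YM, YM⁻¹] w = wordG w := by
    intro w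
    induction w with
    | nil => intro _; rfl
    | cons a w ih =>
      intro h
      rw [evG_cons, ih fun i hi => h i (List.mem_cons_of_mem _ hi)]
      have h3 := h a (List.mem_cons_self ..)
      rcases h3 with rfl | rfl | rfl
      · rfl
      · rfl
      · rfl
  exact key w1 (by decide)

theorem m₂_eq : (m₂ : M24) = wordG [0] := by
  show XM = letG 0 * 1
  rw [mul_one, letG0]

theorem comm7 : wordG l7 * m₁ = m₁ * wordG l7 := by
  rw [m₁_eq, ← Cfsg.Agent.H858.M24Norm.wordG_append, ← Cfsg.Agent.H858.M24Norm.wordG_append]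
  exact Cfsg.Agent.H858.M24Norm.wordG_eq (by decide +kernel)

theorem comma : wordG la * m₂ = m₂ * wordG la := by
  rw [m₂_eq, ← Cfsg.Agent.H858.M24Norm.wordG_append, ← Cfsg.Agent.H858.M24Norm.wordG_append]
  exact Cfsg.Agent.H858.M24Norm.wordG_eq (by decide +kernel)

theorem commb : wordG lb * m₂ = m₂ * wordG lb := by
  rw [m₂_eq, ← Cfsg.Agent.H858.M24Norm.wordG_append, ← Cfsg.Agent.H858.M24Norm.wordG_append]
  exact Cfsg.Agent.H858.M24Norm.wordG_eq (by decide +kernel)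

end Cfsg.Agent.H41.JM.F9Data
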