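import Cfsg.Agent.H41.JM.F9Two

/-!
# The two representatives are of kind A and of kind B
-/

set_option autoImplicit false

open Cfsg

namespace Cfsg.Agent.H41.JM.Kind

open Cfsg.Agent.Lib Cfsg.Agent.Lib.F2MatGroup
open Cfsg.Agent.J4.Rep112 Cfsg.Agent.J4.Pres Cfsg.Agent.J4.M24Hom Cfsg.Agent.J4.Nodes
open Cfsg.Agent.J4.Beta Cfsg.Agent.J4.Classes Cfsg.Agent.J4.Invol
open Cfsg.Agent.J4.ClassesData (Ax Ay A1)
open Cfsg.Agent.H858.VK
open Cfsg.Agent.H858.Data hiding eqsC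
open Cfsg.Agent.H858.Loc7 (Z V_mem_Z conj_s)
open Cfsg.Agent.H858.Norm57 (ms)
open Cfsg.Agent.H858.Pent (lin_zero lin_xor mem_span lin_mod)
open Cfsg.Agent.H860.JM
open Cfsg.Agent.H41.JM.Cls Cfsg.Agent.H41.JM.F9Data Cfsg.Agent.H41.JM.Two

/-- elements of a conjugate of `Z` -/
theorem tyA_of {g x y : Cfsg.Spor.J4} {a b : ℕ} (ha : ∃ u, lin zl u = a) (hb : ∃ u, lin zl u = b)
    (hx : g * x * g⁻¹ = V a) (hy : g * y * g⁻¹ = V b) : TyA geo x y := by
  obtain ⟨u, hu⟩ := ha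
  obtain ⟨u', hu'⟩ := hb
  refine ⟨cj g⁻¹ Z, ⟨g⁻¹, rfl⟩, ?_, ?_⟩
  · rw [mem_cj, inv_inv, hx]
    exact V_mem_Z u hu
  · rw [mem_cj, inv_inv, hy]
    exact V_mem_Z u' hu'

/-- elements of a conjugate of `EJ` -/
theorem mem_pt_of {g x : Cfsg.Spor.J4} {a : ℕ} (hx : g * x * g⁻¹ = V a) : x ∈ cj g⁻¹ EJ := by
  rw [mem_cj, inv_inv, hx]
  exact V_mem a

theorem tyA_one {x y : Cfsg.Spor.J4} (h : TyA geo x y) : TyA geo 1 y := by
  obtain ⟨D, h1, -, h2⟩ := h
  exact ⟨D, h1, D.one_mem, h2⟩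

theorem tyA_self {x y : Cfsg.Spor.J4} (h : TyA geo x y) : TyA geo x x := by
  obtain ⟨D, h1, h2, -⟩ := h
  exact ⟨D, h1, h2, h2⟩

theorem tyA_symm {x y : Cfsg.Spor.J4} (h : TyA geo x y) : TyA geo y x := by
  obtain ⟨D, h1, h2, h3⟩ := h
  exact ⟨D, h1, h3, h2⟩

/-! ### Kind A -/

theorem tyA_185 : TyA geo (V 185) w₁ := by
  have h := tyA_of (g := phi (wordG lA) * gA) (x := V 185) (y := w₁) (a := 972) (b := 1563)
    ⟨3, by decide⟩ ⟨6, by decide⟩ ?_ ?_
  · exact h
  · have e : phi (wordG lA) * gA * V 185 * (phi (wordG lA) * gA)⁻¹ =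
        phi (wordG lA) * (gA * V 185 * gA⁻¹) * (phi (wordG lA))⁻¹ := by group
    rw [e, gA_185, conj_word matA]
    congr 1
  · have e : phi (wordG lA) * gA * w₁ * (phi (wordG lA) * gA)⁻¹ =
        phi (wordG lA) * (gA * phi m₁ * gA⁻¹) * (phi (wordG lA))⁻¹ := by
      show phi (wordG lA) * gA * phi m₁ * (phi (wordG lA) * gA)⁻¹ = _
      group
    rw [e, gA_m, conj_word matA]
    congr 1

theorem comm7' : phi (wordG l7) * w₁ * (phi (wordG l7))⁻¹ = w₁ := by
  show phi (wordG l7) * phi m₁ * (phi (wordG l7))⁻¹ = phi m₁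
  rw [← map_mul, comm7, map_mul]; group

theorem tyA_step {v : ℕ} (h : TyA geo (V v) w₁) : TyA geo (V (lin M7 v)) w₁ := by
  have h1 := tyA_conj cInv (phi (wordG l7)) h
  rwa [conj_word mat7, comm7'] at h1

theorem iter_step {p : ℕ → Prop} {M : List ℕ} (h : ∀ v, p v → p (lin M v)) (i : ℕ) {v : ℕ}
    (hv : p v) : p ((lin M)^[i] v) := by
  induction i with
  | zero => exact hv
  | succ i ih => rw [Function.iterate_succ_apply']; exact h _ ih

theorem tyA₁ : ∀ v ∈ Fs geo EJ w₁, TyA geo v w₁ := by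
  intro u hu
  obtain ⟨v, hv, rfl⟩ := mem_Fs₁.1 hu
  have h : ∀ v ∈ F1, v = 0 ∨ ∃ i < 7, (lin M7)^[i] 185 = v := by decide +kernel
  rcases h v hv with rfl | ⟨i, -, rfl⟩
  · rw [V_zero]; exact tyA_one tyA_185
  · exact iter_step (p := fun v => TyA geo (V v) w₁) (fun _ => tyA_step) i tyA_185

/-- two elements of `EJ` are in a common point with `w₁` -/
def Pp (v v' : ℕ) : Prop := ∃ P', geo.Pt P' ∧ V v ∈ P' ∧ V v' ∈ P' ∧ w₁ ∈ P'

theorem pp_base : ∀ v ∈ [0, 185, 262, 447], ∀ v' ∈ [0, 185, 262, 447], Pp v v' := by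
  have h1 : V 185 ∈ cj gA⁻¹ EJ := mem_pt_of gA_185
  have h2 : V 262 ∈ cj gA⁻¹ EJ := mem_pt_of gA_262
  have h3 : w₁ ∈ cj gA⁻¹ EJ := mem_pt_of gA_m
  have h4 : V 447 ∈ cj gA⁻¹ EJ := by
    have e : V 447 = V 185 * V 262 := by rw [← V_xor]; rfl
    rw [e]; exact Subgroup.mul_mem _ h1 h2
  have h0 : V 0 ∈ cj gA⁻¹ EJ := by rw [V_zero]; exact Subgroup.one_mem _
  have key : ∀ v ∈ [0, 185, 262, 447], V v ∈ cj gA⁻¹ EJ := by
    intro v hv
    simp only [List.mem_cons, List.not_mem_nil, or_false] at hv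
    rcases hv with rfl | rfl | rfl | rfl
    · exact h0
    · exact h1
    · exact h2
    · exact h4
  intro v hv v' hv'
  exact ⟨_, ⟨gA⁻¹, rfl⟩, key v hv, key v' hv', h3⟩

theorem pp_step {v v' : ℕ} (h : Pp v v') : Pp (lin M7 v) (lin M7 v') := by
  obtain ⟨P', h1, h2, h3, h4⟩ := h
  have h5 := conj_mem_cj (g := phi (wordG l7)) h2
  have h6 := conj_mem_cj (g := phi (wordG l7)) h3
  have h7 := conj_mem_cj (g := phi (wordG l7)) h4
  rw [conj_word mat7] at h5 h6
  rw [comm7'] at h7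
  exact ⟨_, cInv.Pt_conj _ _ h1, h5, h6, h7⟩

theorem pp_iter (i : ℕ) {v v' : ℕ} (h : Pp v v') : Pp ((lin M7)^[i] v) ((lin M7)^[i] v') := by
  induction i with
  | zero => exact h
  | succ i ih =>
    rw [Function.iterate_succ_apply', Function.iterate_succ_apply']
    exact pp_step ih

theorem pt₁ : ∀ v ∈ Fs geo EJ w₁, ∀ v' ∈ Fs geo EJ w₁,
    ∃ P', geo.Pt P' ∧ v ∈ P' ∧ v' ∈ P' ∧ w₁ ∈ P' := by
  intro u hu u' hu'
  obtain ⟨v, hv, rfl⟩ := mem_Fs₁.1 hu
  obtain ⟨v', hv', rfl⟩ := mem_Fs₁.1 hu'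
  have h : ∀ v ∈ F1, ∀ v' ∈ F1, ∃ i < 7, ∃ a ∈ [0, 185, 262, 447], ∃ a' ∈ [0, 185, 262, 447],
      (lin M7)^[i] a = v ∧ (lin M7)^[i] a' = v' := by decide +kernel
  obtain ⟨i, -, a, ha, a', ha', rfl, rfl⟩ := h v hv v' hv'
  exact pp_iter i (pp_base a ha a' ha')

/-- `w₁` is of kind A -/
theorem KA₁ : KA geo EJ w₁ where
  act := act₁
  card := card_Fs₁
  tyA := tyA₁
  pt := pt₁
  mul := by
    intro u hu u' hu'
    obtain ⟨v, hv, rfl⟩ := mem_Fs₁.1 hu
    obtain ⟨v', hv', rfl⟩ := mem_Fs₁.1 hu'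
    have h : ∀ v ∈ F1, ∀ v' ∈ F1, v ^^^ v' ∈ F1 := by decide
    exact mem_Fs₁.2 ⟨v ^^^ v', h v hv v' hv', (V_xor v v').symm⟩

/-! ### Kind B -/

theorem tyA_20 : TyA geo (V 20) w₂ := by
  have h := tyA_of (g := phi (wordG lB) * gB) (x := V 20) (y := w₂) (a := 972) (b := 1495)
    ⟨3, by decide⟩ ⟨5, by decide⟩ ?_ ?_
  · exact h
  · have e : phi (wordG lB) * gB * V 20 * (phi (wordG lB) * gB)⁻¹ =
        phi (wordG lB) * (gB * V 20 * gB⁻¹) * (phi (wordG lB))⁻¹ := by group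
    rw [e, gB_20, conj_word matB]
    congr 1
  · have e : phi (wordG lB) * gB * w₂ * (phi (wordG lB) * gB)⁻¹ =
        phi (wordG lB) * (gB * (V 5 * phi m₂) * gB⁻¹) * (phi (wordG lB))⁻¹ := by
      show phi (wordG lB) * gB * (V 5 * phi m₂) * (phi (wordG lB) * gB)⁻¹ = _
      group
    rw [e, gB_m, conj_word matB]
    congr 1

theorem tyA_20_170 : TyA geo (V 20) (V 170) := by
  refine tyA_of (g := phi (wordG lC)) (a := 1394) (b := 1495) ⟨4, by decide⟩ ⟨5, by decide⟩ ?_ ?_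
  · rw [conj_word matC]; congr 1
  · rw [conj_word matC]; congr 1

/-- an element of the centralizer of `w₂` mapping `V 170` to `V v` -/
def Tr (v : ℕ) : Prop := ∃ c : Cfsg.Spor.J4, c * w₂ * c⁻¹ = w₂ ∧ c * V 20 * c⁻¹ = V 20 ∧
  c * V 170 * c⁻¹ = V v

theorem tr_step {l M : List ℕ} (hM : mat l = M) (hc : wordG l * m₂ = m₂ * wordG l)
    (h5 : lin M 5 ∈ C2') (h20 : lin M 20 = 20) {v : ℕ} (h : Tr v) : Tr (lin M v) := by
  obtain ⟨c, h1, h2, h3⟩ := h
  have hd : ∀ v ∈ C2', v < 2048 ∧ lin Ax v = v := by decide +kernel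
  obtain ⟨r, hr⟩ := (over₂ (hd _ h5).1 (hd _ h5).2).2 h5
  have h4 : phi (wordG l) * w₂ * (phi (wordG l))⁻¹ = V r * w₂ * (V r)⁻¹ := by
    have e : phi (wordG l) * (V 5 * phi m₂) * (phi (wordG l))⁻¹ =
        (phi (wordG l) * V 5 * (phi (wordG l))⁻¹) *
          (phi (wordG l) * phi m₂ * (phi (wordG l))⁻¹) := by group
    have e2 : phi (wordG l) * phi m₂ * (phi (wordG l))⁻¹ = phi m₂ := by
      rw [← map_mul, hc, map_mul]; group
    show phi (wordG l) * (V 5 * phi m₂) * (phi (wordG l))⁻¹ = V r * (V 5 * phi m₂) * (V r)⁻¹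
    rw [e, e2, conj_word hM, hr]
  have h6 : ∀ a, (V r)⁻¹ * V a * V r = V a := by
    intro a
    rw [mul_assoc, V_comm a r]; group
  refine ⟨(V r)⁻¹ * phi (wordG l) * c, ?_, ?_, ?_⟩
  · have e : (V r)⁻¹ * phi (wordG l) * c * w₂ * ((V r)⁻¹ * phi (wordG l) * c)⁻¹ =
        (V r)⁻¹ * (phi (wordG l) * (c * w₂ * c⁻¹) * (phi (wordG l))⁻¹) * V r := by group
    rw [e, h1, h4]; group
  · have e : (V r)⁻¹ * phi (wordG l) * c * V 20 * ((V r)⁻¹ * phi (wordG l) * c)⁻¹ =
        (V r)⁻¹ * (phi (wordG l) * (c * V 20 * c⁻¹) * (phi (wordG l))⁻¹) * V r := by group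
    rw [e, h2, conj_word hM, h6, h20]
  · have e : (V r)⁻¹ * phi (wordG l) * c * V 170 * ((V r)⁻¹ * phi (wordG l) * c)⁻¹ =
        (V r)⁻¹ * (phi (wordG l) * (c * V 170 * c⁻¹) * (phi (wordG l))⁻¹) * V r := by group
    rw [e, h3, conj_word hM, h6]

/-- run a word in the two matrices -/
def runAB : List Bool → ℕ → ℕ
  | [], v => v
  | b :: l, v => bif b then lin Mb (runAB l v) else lin Ma (runAB l v)

/-- words -/
def tabAB : List (List Bool) := [
  [false, true, false, false, false], [true, false, false, true, false],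
  [true, false, false, false], [], [false, true, false, false, true, false, true, false],
  [false, true, false, true, false, true, false], [true, false, true, false, true, false],
  [false, true, false, true, false, false, false], [false, false, false, false, false],
  [true, false], [true, false, false, true, false, true, false],
  [false, true, false, true, false], [false, false, false, true, false, true, false],
  [true, false, false, false, false, false],
  [false, true, false, true, false, false, true, false, true, false], [false, false, false],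
  [false, false, false, false], [true, false, true, false, false, true, false, true, false],
  [true, false, true, false, false, false],
  [false, true, false, true, false, true, false, false, false], [false, false, true, false],
  [false, false], [false, true, false, false, true, false],
  [true, false, true, false, true, false, false, false], [true, false, true, false], [false],
  [false, false, true, false, true, false], [true, false, true, false, false, true, false],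
  [false, true, false, false, false, false, false], [false, true, false]]

theorem tr_run (l : List Bool) : Tr (runAB l 170) := by
  induction l with
  | nil => exact ⟨1, by group, by group, by rw [runAB]; group⟩
  | cons b l ih =>
    rcases b with _ | _
    · exact tr_step mata comma (by decide +kernel) (by decide +kernel) ih
    · exact tr_step matb commb (by decide +kernel) (by decide +kernel) ih

theorem tr_all {v : ℕ} (hv : v ∈ C2) (h0 : v ≠ 0) (h20 : v ≠ 20) : Tr v := by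
  have h : ∀ v ∈ C2, v = 0 ∨ v = 20 ∨ ∃ l ∈ tabAB, runAB l 170 = v := by decide +kernel
  rcases h v hv with h1 | h1 | ⟨l, -, rfl⟩
  · exact absurd h1 h0
  · exact absurd h1 h20
  · exact tr_run l

/-! ### The pair `V 170`, `w₂` is not in a line -/

theorem not_tyA_pair : ¬ TyA geo (V 1495) (V 1942) := by
  rintro ⟨D, ⟨g, rfl⟩, h1, h2⟩
  rw [mem_cj] at h1 h2
  obtain ⟨u, hu⟩ := mem_span.1 h1
  obtain ⟨u', hu'⟩ := mem_span.1 h2
  rw [← lin_mod] at hu hu'
  have e1 : g * V (lin zl (u % 2 ^ zl.length)) * g⁻¹ = V 1495 := by rw [← hu]; group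
  have e2 : g * V (lin zl (u' % 2 ^ zl.length)) * g⁻¹ = V 1942 := by rw [← hu']; group
  have hl : u % 2 ^ zl.length < 8 := Nat.mod_lt _ (by decide)
  have hl' : u' % 2 ^ zl.length < 8 := Nat.mod_lt _ (by decide)
  generalize u % 2 ^ zl.length = a at *
  generalize u' % 2 ^ zl.length = a' at *
  have ha0 : a ≠ 0 := by
    rintro rfl
    rw [lin_zero, V_zero] at e1
    exact V_ne (v := 1495) (by norm_num) (by norm_num) (by rw [← e1]; group)
  have ha0' : a' ≠ 0 := by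
    rintro rfl
    rw [lin_zero, V_zero] at e2
    exact V_ne (v := 1942) (by norm_num) (by norm_num) (by rw [← e2]; group)
  have hne : a ≠ a' := by
    rintro rfl
    rw [e1] at e2
    exact absurd (V_inj (by norm_num) (by norm_num) e2) (by norm_num)
  have h : ∀ a < 8, ∀ a' < 8, a = 0 ∨ a' = 0 ∨ a = a' ∨
      ∃ i < 7, ∃ z ∈ [165, 873, 972], ∃ z' ∈ [165, 873, 972],
        (lin ms)^[i] z = lin zl a ∧ (lin ms)^[i] z' = lin zl a' := by decide +kernel
  rcases h a hl a' hl' with h | h | h | ⟨i, -, z, hz, z', hz', h3, h4⟩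
  · exact ha0 h
  · exact ha0' h
  · exact hne h
  · obtain ⟨c, hc⟩ : ∃ c : Cfsg.Spor.J4, ∀ v, c * V v * c⁻¹ = V ((lin ms)^[i] v) := by
      clear h3 h4
      induction i with
      | zero => exact ⟨1, fun v => by rw [Function.iterate_zero_apply]; group⟩
      | succ i ih =>
        obtain ⟨c, hc⟩ := ih
        refine ⟨Cfsg.Agent.H858.Elem.s * c, fun v => ?_⟩
        have e : Cfsg.Agent.H858.Elem.s * c * V v * (Cfsg.Agent.H858.Elem.s * c)⁻¹ =
          Cfsg.Agent.H858.Elem.s * (c * V v * c⁻¹) * (Cfsg.Agent.H858.Elem.s)⁻¹ := by group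
        rw [e, hc, Function.iterate_succ_apply']
        exact conj_s _
    refine Rank.not_conj hz hz' (g * c) ?_ ?_
    · have e : g * c * V z * (g * c)⁻¹ = g * (c * V z * c⁻¹) * g⁻¹ := by group
      rw [e, hc, h3, e1]
    · have e : g * c * V z' * (g * c)⁻¹ = g * (c * V z' * c⁻¹) * g⁻¹ := by group
      rw [e, hc, h4, e2]

theorem not_tyA_170 : ¬ TyA geo (V 170) w₂ := by
  intro h
  have h1 := tyA_conj cInv gB h
  rw [gB_170] at h1
  have h2 : gB * w₂ * gB⁻¹ = V 1942 := gB_m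
  rw [h2] at h1
  exact not_tyA_pair h1

theorem not_tyA {v : ℕ} (hv : v ∈ C2) (h0 : v ≠ 0) (h20 : v ≠ 20) : ¬ TyA geo (V v) w₂ := by
  intro h
  obtain ⟨c, h1, -, h3⟩ := tr_all hv h0 h20
  have h4 := tyA_conj cInv c⁻¹ h
  have e1 : c⁻¹ * V v * c⁻¹⁻¹ = V 170 := by rw [← h3]; group
  have e2 : c⁻¹ * w₂ * c⁻¹⁻¹ = w₂ := by
    conv_lhs => rw [← h1]
    group
  rw [e1, e2] at h4
  exact not_tyA_170 h4

theorem isX_20 : IsX geo EJ w₂ (V 20) where
  mem := mem_Fs₂.2 ⟨20, by decide, rfl⟩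
  ne := V_ne (by norm_num) (by norm_num)
  tyA := tyA_20

/-- `w₂` is of kind B -/
theorem KB₂ : KB geo EJ w₂ where
  act := act₂
  card := card_Fs₂
  ex := by
    refine ⟨V 20, isX_20, ?_, ?_⟩
    · intro y hy
      obtain ⟨v, hv, rfl⟩ := mem_Fs₂.1 hy.mem
      by_contra hne
      refine not_tyA hv ?_ ?_ hy.tyA
      · rintro rfl
        exact hy.ne V_zero
      · rintro rfl
        exact hne rfl
    · intro y hy
      obtain ⟨v, hv, rfl⟩ := mem_Fs₂.1 hy
      by_cases h0 : v = 0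
      · rw [h0, V_zero]; exact tyA_symm (tyA_one (tyA_symm tyA_20))
      · by_cases h20 : v = 20
        · rw [h20]; exact tyA_self tyA_20
        · obtain ⟨c, -, h2, h3⟩ := tr_all hv h0 h20
          have h4 := tyA_conj cInv c tyA_20_170
          rwa [h2, h3] at h4

/-- the common points for `w₂` -/
theorem Cp₂ : Cp geo EJ w₂ := by
  intro y hy
  obtain ⟨v, hv, rfl⟩ := mem_Fs₂.1 hy
  have hw : w₂ ∈ cj gB⁻¹ EJ := mem_pt_of gB_m
  by_cases h0 : v = 0
  · exact ⟨_, ⟨gB⁻¹, rfl⟩, by rw [h0, V_zero]; exact Subgroup.one_mem _, hw⟩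
  · by_cases h20 : v = 20
    · exact ⟨_, ⟨gB⁻¹, rfl⟩, by rw [h20]; exact mem_pt_of gB_20, hw⟩
    · obtain ⟨c, h1, -, h3⟩ := tr_all hv h0 h20
      have h4 : V 170 ∈ cj gB⁻¹ EJ := mem_pt_of gB_170
      refine ⟨cj c (cj gB⁻¹ EJ), cInv.Pt_conj _ _ ⟨gB⁻¹, rfl⟩, ?_, ?_⟩
      · rw [← h3]; exact conj_mem_cj h4
      · rw [← h1]; exact conj_mem_cj hw

end Cfsg.Agent.H41.JM.Kind
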