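import Cfsg.Agent.H41.JM.F9Kind

/-!
# The group `F_w` of an element of kind A determines its coset
-/

set_option autoImplicit false

open Cfsg

namespace Cfsg.Agent.H41.JM.Same

open Cfsg.Agent.Lib Cfsg.Agent.Lib.F2MatGroup
open Cfsg.Agent.J4.Rep112 Cfsg.Agent.J4.Pres Cfsg.Agent.J4.M24Hom Cfsg.Agent.J4.Nodes
open Cfsg.Agent.J4.Beta Cfsg.Agent.J4.Classes Cfsg.Agent.J4.Invol
open Cfsg.Agent.J4.ClassesData (Ax Ay A1)
open Cfsg.Agent.SporadicA.GolayBase (idx)
open Cfsg.Agent.H858.VK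
open Cfsg.Agent.H858.Data hiding eqsC
open Cfsg.Agent.H860.JM
open Cfsg.Agent.H41.JM.Cls Cfsg.Agent.H41.JM.F9Data Cfsg.Agent.H41.JM.Two

/-- vectors of the points (the duad `{i, 23}` for the point `i`) -/
def du : List ℕ := [1010, 1084, 653, 1862, 1496, 893, 1850, 1749, 1859, 1527, 275, 499, 27, 482,
  440, 253, 66, 192, 1000, 1529, 346, 341, 315, 0]

/-- the vector of a duad -/
def D (i j : GolayPt) : ℕ := du.getD (idx i) 0 ^^^ du.getD (idx j) 0

theorem D_X : ∀ i j : GolayPt, lin Ax (D i j) = D (X i) (X j) := by decide +kernel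
theorem D_Y : ∀ i j : GolayPt, lin Ay (D (Y i) (Y j)) = D i j := by decide +kernel

theorem conj_swap {G : Type*} [Group G] {a b c : G} (h : c⁻¹ * a * c⁻¹⁻¹ = b) :
    c * b * c⁻¹ = a := by
  rw [← h]; group

/-- the action on the duads -/
theorem conj_D (g : M24) : ∀ i j : GolayPt, phi g * V (D i j) * (phi g)⁻¹ =
    V (D ((g : Equiv.Perm GolayPt) i) ((g : Equiv.Perm GolayPt) j)) := by
  have hg : g ∈ Subgroup.closure ({XM, YM} : Set M24) :=
    (congrArg (fun K : Subgroup M24 => g ∈ K) closure_XYM).mpr (Subgroup.mem_top g)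
  have hY : ∀ v, (phi YM)⁻¹ * V v * ((phi YM)⁻¹)⁻¹ = V (lin Ay v) := by
    intro v
    apply rho_injective
    rw [map_mul, map_mul, map_inv rho ((phi YM)⁻¹), map_inv rho (phi YM), rho_V, rho_V]
    exact hyp.actY v
  induction hg using Subgroup.closure_induction with
  | mem x hx =>
    intro i j
    rcases hx with rfl | rfl
    · have h : phi XM * V (D i j) * (phi XM)⁻¹ = V (lin Ax (D i j)) := actV₂ _
      rw [D_X] at h
      exact h
    · have h := hY (D (Y i) (Y j))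
      rw [D_Y] at h
      exact conj_swap h
  | one =>
    intro i j
    rw [map_one, one_mul, inv_one, mul_one]
    rfl
  | mul x y _ _ hx hy =>
    intro i j
    have e : phi (x * y) * V (D i j) * (phi (x * y))⁻¹ =
        phi x * (phi y * V (D i j) * (phi y)⁻¹) * (phi x)⁻¹ := by rw [map_mul]; group
    rw [e, hy, hx]
    rfl
  | inv x _ hx =>
    intro i j
    have h := hx (((x⁻¹ : M24) : Equiv.Perm GolayPt) i) (((x⁻¹ : M24) : Equiv.Perm GolayPt) j)
    have e : ∀ p : GolayPt, (x : Equiv.Perm GolayPt) (((x⁻¹ : M24) : Equiv.Perm GolayPt) p) = p := by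
      intro p
      show ((x : Equiv.Perm GolayPt) * (x : Equiv.Perm GolayPt)⁻¹) p = p
      rw [mul_inv_cancel]; rfl
    rw [e, e] at h
    rw [map_inv]
    apply conj_swap
    rw [inv_inv]
    exact h

theorem D_lt (i j : GolayPt) : D i j < 2048 := by
  revert i j
  decide +kernel

/-- the relation of the points `i`, `j` (on the numbers) -/
def Rb (i j : GolayPt) : Bool := F1.all fun a =>
  Nat.beq a 0 || (!(cA (a ^^^ D i j)) && !(Nat.beq (a ^^^ D i j) 0))

/-- the relation of the points `i`, `j` -/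
def R (i j : GolayPt) : Prop := ∀ a ∈ F1, a ≠ 0 → geo.B (V (a ^^^ D i j))

theorem xor_lt {a : ℕ} (ha : a ∈ F1) (i j : GolayPt) : a ^^^ D i j < 2048 := by
  have h : ∀ a ∈ F1, a < 2048 := by decide
  exact Nat.xor_lt_two_pow (n := 11) (h a ha) (D_lt i j)

theorem R_iff (i j : GolayPt) : R i j ↔ Rb i j = true := by
  unfold R Rb
  rw [List.all_eq_true]
  constructor
  · intro h a ha
    rw [Bool.or_eq_true, Nat.beq_eq]
    by_cases h0 : a = 0
    · exact Or.inl h0
    · right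
      have h1 := h a ha h0
      have h2 : a ^^^ D i j ≠ 0 := by
        intro h3
        rw [h3, V_zero] at h1
        have h2 : IsConj d 1 := h1
        rw [isConj_one_left, d_eq] at h2
        exact V_ne (by norm_num) (by norm_num) h2
      rw [Bool.and_eq_true, Bool.not_eq_true', Bool.not_eq_true']
      constructor
      · by_contra h3
        rw [Bool.not_eq_false] at h3
        exact not_A_of_B h1 (A_V (xor_lt ha i j) h2 h3)
      · by_contra h3
        rw [Bool.not_eq_false, Nat.beq_eq] at h3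
        exact h2 h3
  · intro h a ha h0
    have h1 := h a ha
    rw [Bool.or_eq_true, Nat.beq_eq, Bool.and_eq_true, Bool.not_eq_true', Bool.not_eq_true'] at h1
    rcases h1 with h1 | ⟨h1, h2⟩
    · exact absurd h1 h0
    · refine B_V (xor_lt ha i j) ?_ h1
      intro h3
      rw [h3] at h2
      exact absurd h2 (by decide)

/-- the permutation of `m₁` -/
def σ₁ (i : GolayPt) : GolayPt :=
  Cfsg.Agent.SporadicA.GolayBase.pt (Cfsg.Agent.SporadicA.GolayPerm.papp
    Cfsg.Agent.J4.M24InvolData.P1 (idx i))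

theorem m₁_apply (i : GolayPt) : ((m₁ : M24) : Equiv.Perm GolayPt) i = σ₁ i := by
  show ((Cfsg.Agent.SporadicStructure.M24El.el Cfsg.Agent.J4.M24InvolData.P1 : M24) :
    Equiv.Perm GolayPt) i = _
  rw [Cfsg.Agent.SporadicStructure.M24El.coe_el Cfsg.Agent.J4.M24Invol.ok_P1]
  rfl

theorem Rb_iff : ∀ i j : GolayPt, i ≠ j → (Rb i j = true ↔ σ₁ i = j) := by decide +kernel

theorem R_iff' {i j : GolayPt} (h : i ≠ j) :
    R i j ↔ ((m₁ : M24) : Equiv.Perm GolayPt) i = j := by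
  rw [R_iff, m₁_apply]
  exact Rb_iff i j h

/-- An element of `M24` preserving `F_{w₁}` commutes with `m₁`. -/
theorem comm_of_pres {ν : M24} (h1 : ∀ a ∈ F1, ∃ b ∈ F1, phi ν * V a * (phi ν)⁻¹ = V b)
    (h2 : ∀ b ∈ F1, ∃ a ∈ F1, phi ν * V a * (phi ν)⁻¹ = V b) : ν * m₁ = m₁ * ν := by
  have hlt : ∀ a ∈ F1, a < 2048 := by decide
  have key : ∀ i j : GolayPt, R i j ↔
      R ((ν : Equiv.Perm GolayPt) i) ((ν : Equiv.Perm GolayPt) j) := by
    intro i j
    have hconj : ∀ a b : ℕ, phi ν * V a * (phi ν)⁻¹ = V b → phi ν * V (a ^^^ D i j) * (phi ν)⁻¹ =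
        V (b ^^^ D ((ν : Equiv.Perm GolayPt) i) ((ν : Equiv.Perm GolayPt) j)) := by
      intro a b hab
      rw [V_xor, V_xor, ← conj_D, ← hab]; group
    have hne : ∀ a b : ℕ, a < 2048 → b < 2048 → phi ν * V a * (phi ν)⁻¹ = V b →
        (a = 0 ↔ b = 0) := by
      intro a b ha hb hab
      constructor
      · rintro rfl
        rw [V_zero] at hab
        refine V_inj hb (by norm_num) ?_
        rw [← hab, V_zero]; group
      · rintro rfl
        rw [V_zero] at hab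
        refine V_inj ha (by norm_num) ?_
        rw [V_zero]
        have e : V a = (phi ν)⁻¹ * (phi ν * V a * (phi ν)⁻¹) * phi ν := by group
        rw [e, hab]; group
    constructor
    · intro h b hb hb0
      obtain ⟨a, ha, hab⟩ := h2 b hb
      rw [← hconj a b hab]
      refine B_conj _ (h a ha fun h0 => hb0 ?_)
      exact (hne a b (hlt a ha) (hlt b hb) hab).1 h0
    · intro h a ha ha0
      obtain ⟨b, hb, hab⟩ := h1 a ha
      have h3 := h b hb fun h0 => ha0 ((hne a b (hlt a ha) (hlt b hb) hab).2 h0)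
      rw [← hconj a b hab] at h3
      have h4 := B_conj (phi ν)⁻¹ h3
      have e : (phi ν)⁻¹ * (phi ν * V (a ^^^ D i j) * (phi ν)⁻¹) * (phi ν)⁻¹⁻¹ =
          V (a ^^^ D i j) := by group
      rwa [e] at h4
  have hinj : Function.Injective (ν : Equiv.Perm GolayPt) := (ν : Equiv.Perm GolayPt).injective
  have hmain : ∀ i, (ν : Equiv.Perm GolayPt) (((m₁ : M24) : Equiv.Perm GolayPt) i) =
      ((m₁ : M24) : Equiv.Perm GolayPt) ((ν : Equiv.Perm GolayPt) i) := by
    intro i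
    by_cases hi : ((m₁ : M24) : Equiv.Perm GolayPt) i = i
    · rw [hi]
      by_contra hne
      obtain ⟨k, hk⟩ := (ν : Equiv.Perm GolayPt).surjective
        (((m₁ : M24) : Equiv.Perm GolayPt) ((ν : Equiv.Perm GolayPt) i))
      have hik : i ≠ k := by
        rintro rfl
        exact hne hk
      have h3 := (R_iff' (hinj.ne hik)).2 hk.symm
      have h4 := (R_iff' hik).1 ((key i k).2 h3)
      exact hik (hi.symm.trans h4)
    · have h3 := (R_iff' (Ne.symm hi)).2 rfl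
      have h4 := (key _ _).1 h3
      exact ((R_iff' (hinj.ne (Ne.symm hi))).1 h4).symm
  apply Subtype.ext
  apply Equiv.ext
  intro i
  exact hmain i

theorem mem_inv_mul {v : ℕ} {ν : M24} (h : ν * m₁ = m₁ * ν) :
    w₁⁻¹ * (V v * phi ν * w₁ * (V v * phi ν)⁻¹) ∈ EJ := by
  have e : w₁⁻¹ * (V v * phi ν * w₁ * (V v * phi ν)⁻¹) =
      ((phi m₁)⁻¹ * V v * (phi m₁)⁻¹⁻¹) *
        ((phi m₁)⁻¹ * (phi ν * phi m₁ * (phi ν)⁻¹) * (V v)⁻¹) := by
    show (phi m₁)⁻¹ * (V v * phi ν * phi m₁ * (V v * phi ν)⁻¹) = _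
    group
  have e2 : phi ν * phi m₁ * (phi ν)⁻¹ = phi m₁ := by
    rw [← map_mul, h, map_mul]; group
  rw [e, e2, inv_mul_cancel, one_mul]
  refine EJ.mul_mem ?_ (EJ.inv_mem (V_mem v))
  exact (Subgroup.mem_normalizer_iff.1 (Subgroup.inv_mem _ (phi_mem m₁)) _).1 (V_mem v)

/-- the group `F_w` determines the coset -/
theorem same (hN : Subgroup.normalizer (EJ : Set Cfsg.Spor.J4) ≤ Cfsg.Agent.H858.FixJ4.B)
    (c : Cfsg.Spor.J4) (hc : c ∈ Subgroup.normalizer (EJ : Set Cfsg.Spor.J4))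
    (h : Fs geo EJ (c * w₁ * c⁻¹) = Fs geo EJ w₁) : w₁⁻¹ * (c * w₁ * c⁻¹) ∈ EJ := by
  obtain ⟨e, he, ν, rfl⟩ := mem_B.1 (hN hc)
  obtain ⟨v, hv, rfl⟩ := mem_EJ.1 he
  apply mem_inv_mul
  have h1 := Fs_conj_eq cInv EJ w₁ (V v * phi ν)
  rw [cj_eq_of_mem_normalizer hc, h] at h1
  have hVν : ∀ a, V v * phi ν * V a * (V v * phi ν)⁻¹ = phi ν * V a * (phi ν)⁻¹ := by
    intro a
    obtain ⟨b, -, hb⟩ := exists_conj ν a
    have e : V v * phi ν * V a * (V v * phi ν)⁻¹ = V v * (phi ν * V a * (phi ν)⁻¹) * (V v)⁻¹ := by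
      group
    rw [e, hb, V_comm v b]; group
  apply comm_of_pres
  · intro a ha
    have h2 : (V v * phi ν) * V a * (V v * phi ν)⁻¹ ∈ Fs geo EJ w₁ := by
      rw [h1]
      exact ⟨V a, mem_Fs₁.2 ⟨a, ha, rfl⟩, rfl⟩
    obtain ⟨b, hb, h3⟩ := mem_Fs₁.1 h2
    exact ⟨b, hb, by rw [← h3, hVν]⟩
  · intro b hb
    have h2 : V b ∈ Fs geo EJ w₁ := mem_Fs₁.2 ⟨b, hb, rfl⟩
    rw [h1] at h2
    obtain ⟨u, hu, h3⟩ := h2
    obtain ⟨a, ha, rfl⟩ := mem_Fs₁.1 hu
    exact ⟨a, ha, by rw [← hVν]; exact h3⟩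

end Cfsg.Agent.H41.JM.Same
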