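import Cfsg.Agent.H41.JM.F9Data

/-!
# The two representatives of the 2A elements in `2^11 : M24` outside `2^11`
-/

set_option autoImplicit false

open Cfsg

namespace Cfsg.Agent.H41.JM.Two

open Cfsg.Agent.Lib Cfsg.Agent.Lib.F2MatGroup
open Cfsg.Agent.J4.Rep112 Cfsg.Agent.J4.Pres Cfsg.Agent.J4.M24Hom Cfsg.Agent.J4.Nodes
open Cfsg.Agent.J4.Beta Cfsg.Agent.J4.Classes Cfsg.Agent.J4.Invol
open Cfsg.Agent.J4.ClassesData (Ax Ay A1)
open Cfsg.Agent.J4.Lower Cfsg.Agent.J4.LowerData Cfsg.Agent.J4.ClassesAbs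
open Cfsg.Agent.H858.VK
open Cfsg.Agent.H858.Data hiding eqsC
open Cfsg.Agent.H858.Loc7 (Z V_mem_Z conj_s)
open Cfsg.Agent.H858.Norm57 (ms)
open Cfsg.Agent.H858.Pent (lin_zero lin_xor mem_span)
open Cfsg.Agent.H860.JM
open Cfsg.Agent.H41.JM.Cls Cfsg.Agent.H41.JM.F9Data

/-- the representative of kind A -/
noncomputable def w₁ : Cfsg.Spor.J4 := phi m₁
/-- the representative of kind B -/
noncomputable def w₂ : Cfsg.Spor.J4 := V 5 * phi m₂

theorem A_sq {u : Cfsg.Spor.J4} (h : geo.A u) : u * u = 1 := by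
  have h1 : IsConj s u := h
  obtain ⟨g, rfl⟩ := isConj_iff.1 h1
  have e : g * s * g⁻¹ * (g * s * g⁻¹) = g * (s * s) * g⁻¹ := by group
  rw [e, s_eq, V_sq]; group

theorem V_ne {v : ℕ} (hv : v < 2048) (h0 : v ≠ 0) : V v ≠ 1 := by
  intro h
  exact h0 (V_inj hv (by norm_num) (h.trans V_zero.symm))

theorem A_ne {u : Cfsg.Spor.J4} (h : geo.A u) : u ≠ 1 := by
  have h1 : IsConj s u := h
  obtain ⟨g, rfl⟩ := isConj_iff.1 h1
  intro h2
  have h3 : s = 1 := by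
    have e : s = g⁻¹ * (g * s * g⁻¹) * g := by group
    rw [e, h2]; group
  rw [s_eq] at h3
  exact V_ne (by norm_num) (by norm_num) h3

theorem w₁_A : geo.A w₁ := by
  have h := rep1_A
  rwa [V_zero, one_mul] at h

theorem w₂_A : geo.A w₂ := rep2_A

theorem phi_mem (m : M24) : phi m ∈ Subgroup.normalizer (EJ : Set Cfsg.Spor.J4) :=
  phi_norm ⟨m, rfl⟩

theorem V_mem_norm (v : ℕ) : V v ∈ Subgroup.normalizer (EJ : Set Cfsg.Spor.J4) :=
  Subgroup.le_normalizer (V_mem v)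

theorem eq_one_of_mul_mem {v : ℕ} {m : M24} (h : V v * phi m ∈ EJ) : m = 1 := by
  have h1 : phi m ∈ EJ := by
    have h2 := EJ.mul_mem (V_mem v) h
    rwa [← mul_assoc, V_sq, one_mul] at h2
  exact phi_injective ((inf_eq_one _ h1 ⟨m, rfl⟩).trans (map_one phi).symm)

theorem m₁_ne : (m₁ : M24) ≠ 1 := by
  intro h
  apply A_ne w₁_A
  show phi m₁ = 1
  rw [h, map_one]

theorem m₂_ne : (m₂ : M24) ≠ 1 := by
  intro h
  have h1 := rep2_B
  rw [V_zero, one_mul, h, map_one] at h1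
  have h2 : IsConj d 1 := h1
  rw [isConj_one_left] at h2
  rw [d_eq] at h2
  exact V_ne (by norm_num) (by norm_num) h2

theorem act₁ : Act geo EJ w₁ where
  mem := phi_mem _
  not_mem := fun h => m₁_ne (eq_one_of_mul_mem (v := 0) (by rw [V_zero, one_mul]; exact h))
  A := w₁_A

theorem act₂ : Act geo EJ w₂ where
  mem := Subgroup.mul_mem _ (V_mem_norm 5) (phi_mem _)
  not_mem := fun h => m₂_ne (eq_one_of_mul_mem h)
  A := w₂_A

theorem linA1_lt (v : ℕ) : lin A1 v < 2048 := lin_lt (by decide) v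
theorem linAx_lt (v : ℕ) : lin Ax v < 2048 := lin_lt (by decide) v

/-- the commutation of `V v` and `V a * phi m` -/
theorem comm_iff {m : M24} {A : List ℕ} (hA : ∀ v, phi m * V v * (phi m)⁻¹ = V (lin A v))
    (hlt : ∀ v, lin A v < 2048) {v : ℕ} (hv : v < 2048) (a : ℕ) :
    V v * (V a * phi m) = V a * phi m * V v ↔ lin A v = v := by
  have h1 : V a * phi m * V v = V a * (V (lin A v) * phi m) := by
    rw [← hA]; group
  have h2 : V v * (V a * phi m) = V a * (V v * phi m) := by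
    rw [← mul_assoc, V_comm v a, mul_assoc]
  rw [h1, h2]
  constructor
  · intro h
    exact (V_inj hv (hlt v) (mul_right_cancel (mul_left_cancel h))).symm
  · intro h
    rw [h]

/-- the square of `V v * phi m` -/
theorem sq_lin {m : M24} {A : List ℕ} (hA : ∀ v, phi m * V v * (phi m)⁻¹ = V (lin A v))
    (hlt : ∀ v, lin A v < 2048) {v : ℕ} (hv : v < 2048) (hm : m * m = 1)
    (h : V v * phi m * (V v * phi m) = 1) : lin A v = v := by
  have h0 : phi m * phi m = 1 := by rw [← map_mul, hm, map_one]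
  have h1 : V v * phi m * (V v * phi m) = V v * (phi m * V v * (phi m)⁻¹) * (phi m * phi m) := by
    group
  rw [h1, h0, mul_one, hA] at h
  have h2 : V (lin A v) = V v := by
    have h3 := V_sq v
    rw [← h] at h3
    exact (mul_left_cancel h3).symm
  exact V_inj (hlt v) hv h2

/-- the conjugate of an element of `EJ` under `M24` -/
theorem exists_conj (m : M24) (v : ℕ) : ∃ v' < 2048, phi m * V v * (phi m)⁻¹ = V v' :=
  mem_EJ.1 ((Subgroup.mem_normalizer_iff.1 (phi_mem m) _).1 (V_mem v))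

theorem el_P2 : Cfsg.Agent.SporadicStructure.M24El.el Cfsg.Agent.J4.M24InvolData.P2 = XM := by
  apply Subtype.ext
  rw [Cfsg.Agent.SporadicStructure.M24El.coe_el Cfsg.Agent.J4.M24Invol.ok_P2]
  ext1 p
  rw [Cfsg.Agent.SporadicA.GolayPerm.permOf_apply]
  revert p
  decide +kernel

/-- the elements in question are conjugate to `w₁` or `w₂` -/
theorem classify (hN : Subgroup.normalizer (EJ : Set Cfsg.Spor.J4) ≤ Cfsg.Agent.H858.FixJ4.B)
    {w : Cfsg.Spor.J4} (hw : Act geo EJ w) :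
    ∃ c ∈ Subgroup.normalizer (EJ : Set Cfsg.Spor.J4), c * w * c⁻¹ = w₁ ∨ c * w * c⁻¹ = w₂ := by
  obtain ⟨e, he, μ, rfl⟩ := mem_B.1 (hN hw.mem)
  obtain ⟨v, hv, rfl⟩ := mem_EJ.1 he
  have hμ1 : μ ≠ 1 := by
    rintro rfl
    apply hw.not_mem
    rw [map_one, mul_one]; exact he
  have hsq := A_sq hw.A
  have hμ : μ * μ = 1 := by
    obtain ⟨v', -, h1⟩ := exists_conj μ v
    have h2 : V v * phi μ * (V v * phi μ) = V v * (phi μ * V v * (phi μ)⁻¹) * phi (μ * μ) := by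
      rw [map_mul]; group
    rw [h1, ← V_xor] at h2
    rw [h2] at hsq
    exact eq_one_of_mul_mem (by rw [hsq]; exact EJ.one_mem)
  obtain ⟨ν, hν⟩ := Cfsg.Agent.J4.M24Invol.invol_conj μ hμ hμ1
  rw [el_P2] at hν
  obtain ⟨v', hv', h1⟩ := exists_conj ν v
  have key : ∀ m : M24, ν * μ * ν⁻¹ = m →
      phi ν * (V v * phi μ) * (phi ν)⁻¹ = V v' * phi m := by
    rintro m rfl
    rw [← h1, map_mul, map_mul, map_inv]; group
  have hmm : ∀ m : M24, ν * μ * ν⁻¹ = m → m * m = 1 := by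
    rintro m rfl
    have : ν * μ * ν⁻¹ * (ν * μ * ν⁻¹) = ν * (μ * μ) * ν⁻¹ := by group
    rw [this, hμ]; group
  have hA : ∀ m : M24, ν * μ * ν⁻¹ = m → geo.A (V v' * phi m) := by
    intro m hm
    rw [← key m hm]
    exact cInv.A_conj _ _ hw.A
  rcases hν with hν | hν
  · have h2 := sq_lin actV₁ linA1_lt hv' (hmm _ hν) (A_sq (hA _ hν))
    obtain ⟨r, h3⟩ := (over₁ hv' h2).2 ((over₁ hv' h2).1.1 (hA _ hν))
    refine ⟨(V r)⁻¹ * phi ν, Subgroup.mul_mem _ (Subgroup.inv_mem _ (V_mem_norm r)) (phi_mem ν),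
      Or.inl ?_⟩
    have e : (V r)⁻¹ * phi ν * (V v * phi μ) * ((V r)⁻¹ * phi ν)⁻¹ =
        (V r)⁻¹ * (phi ν * (V v * phi μ) * (phi ν)⁻¹) * V r := by group
    rw [e, key _ hν, ← h3]
    show _ = phi m₁
    group
  · have h2 := sq_lin actV₂ linAx_lt hv' (hmm _ hν) (A_sq (hA _ hν))
    obtain ⟨r, h3⟩ := (over₂ hv' h2).2 ((over₂ hv' h2).1.1 (hA _ hν))
    refine ⟨(V r)⁻¹ * phi ν, Subgroup.mul_mem _ (Subgroup.inv_mem _ (V_mem_norm r)) (phi_mem ν),
      Or.inr ?_⟩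
    have e : (V r)⁻¹ * phi ν * (V v * phi μ) * ((V r)⁻¹ * phi ν)⁻¹ =
        (V r)⁻¹ * (phi ν * (V v * phi μ) * (phi ν)⁻¹) * V r := by group
    rw [e, key _ hν, ← h3]
    show _ = V 5 * phi m₂
    group

/-- the 2A elements of the coset of `w₂` -/
theorem cent₂ {w : Cfsg.Spor.J4} (hw : Act geo EJ w) (h : w₂⁻¹ * w ∈ EJ) :
    ∃ r ∈ EJ, r * w * r⁻¹ = w₂ := by
  obtain ⟨a, ha, h1⟩ := mem_EJ.1 h
  obtain ⟨b, hb, h2⟩ := exists_conj m₂ a
  have h3 : w = V (5 ^^^ b) * phi m₂ := by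
    have e : w = w₂ * (w₂⁻¹ * w) := by group
    rw [e, h1, V_xor, ← h2]
    show V 5 * phi m₂ * V a = _
    group
  have hlt : 5 ^^^ b < 2048 := Nat.xor_lt_two_pow (n := 11) (by norm_num) hb
  have hmm : (m₂ : M24) * m₂ = 1 := by
    have h4 : wordG [0, 0] = wordG [] := Cfsg.Agent.H858.M24Norm.wordG_eq (by decide +kernel)
    have h5 : wordG [0, 0] = XM * (XM * 1) := rfl
    rw [h5, mul_one] at h4
    exact h4
  have hA := hw.A
  rw [h3] at hA
  have h4 := sq_lin actV₂ linAx_lt hlt hmm (A_sq hA)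
  obtain ⟨r, h5⟩ := (over₂ hlt h4).2 ((over₂ hlt h4).1.1 hA)
  refine ⟨(V r)⁻¹, EJ.inv_mem (V_mem r), ?_⟩
  rw [h3, ← h5]
  show _ = V 5 * phi m₂
  group

/-! ### The groups `F_w` -/

/-- the elements for `w₁` -/
def F1 : List ℕ := [0, 119, 185, 206, 262, 369, 447, 456]

theorem mem_Fs₁ {u : Cfsg.Spor.J4} : u ∈ Fs geo EJ w₁ ↔ ∃ v ∈ F1, u = V v := by
  have hd : ∀ v ∈ C1, cA v = true → v ∈ F1 := by decide +kernel
  have hd2 : ∀ v ∈ F1, v < 2048 ∧ lin A1 v = v ∧ v ∈ C1 ∧ (v = 0 ∨ cA v = true) := by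
    decide +kernel
  have hw : w₁ = V 0 * phi m₁ := by rw [V_zero, one_mul]; rfl
  constructor
  · rintro ⟨h1, h2, h3⟩
    obtain ⟨v, hv, rfl⟩ := mem_EJ.1 h1
    rw [hw] at h2 h3
    have h4 := (comm_iff actV₁ linA1_lt hv 0).1 h2
    refine ⟨v, ?_, rfl⟩
    rcases h3 with h3 | ⟨h3, h5⟩
    · have : v = 0 := V_inj hv (by norm_num) (h3.trans V_zero.symm)
      rw [this]; decide
    · rw [V_zero, one_mul] at h5
      have h6 := (over₁ hv h4).1.1 h5
      have h0 : v ≠ 0 := by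
        rintro rfl
        rw [V_zero] at h3
        exact A_ne h3 rfl
      exact hd v h6 ((A_V_iff hv h0).1 h3)
  · rintro ⟨v, hv, rfl⟩
    obtain ⟨h1, h2, h3, h4⟩ := hd2 v hv
    refine ⟨V_mem v, ?_, ?_⟩
    · rw [hw]
      exact (comm_iff actV₁ linA1_lt h1 0).2 h2
    · by_cases h0 : v = 0
      · left; rw [h0]; exact V_zero
      · have h4 : cA v = true := h4.resolve_left h0
        right
        refine ⟨(A_V_iff h1 h0).2 h4, ?_⟩
        exact (over₁ h1 h2).1.2 h3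

theorem mem_Fs₂ {u : Cfsg.Spor.J4} : u ∈ Fs geo EJ w₂ ↔ ∃ v ∈ C2, u = V v := by
  have hd : ∀ v ∈ C2', v ^^^ 5 ∈ C2 := by decide +kernel
  have hd2 : ∀ v ∈ C2, v < 2048 ∧ lin Ax v = v ∧ lin Ax (v ^^^ 5) = v ^^^ 5 ∧ v ^^^ 5 ∈ C2' ∧
      (v = 0 ∨ cA v = true) := by
    decide +kernel
  have h5lin : lin Ax 5 = 5 := by decide
  have hx : ∀ v, V v * w₂ = V (v ^^^ 5) * phi m₂ := by
    intro v
    rw [V_xor]
    show V v * (V 5 * phi m₂) = _
    group
  constructor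
  · rintro ⟨h1, h2, h3⟩
    obtain ⟨v, hv, rfl⟩ := mem_EJ.1 h1
    have h4 := (comm_iff actV₂ linAx_lt hv 5).1 h2
    refine ⟨v, ?_, rfl⟩
    rcases h3 with h3 | ⟨h3, h5⟩
    · have : v = 0 := V_inj hv (by norm_num) (h3.trans V_zero.symm)
      rw [this]; decide
    · rw [hx] at h5
      have hlt : v ^^^ 5 < 2048 := Nat.xor_lt_two_pow (n := 11) hv (by norm_num)
      have h4' : lin Ax (v ^^^ 5) = v ^^^ 5 := by rw [lin_xor, h4, h5lin]
      have h6 := hd _ ((over₂ hlt h4').1.1 h5)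
      rwa [Nat.xor_assoc, Nat.xor_self, Nat.xor_zero] at h6
  · rintro ⟨v, hv, rfl⟩
    obtain ⟨h1, h2, h2', h3, h4⟩ := hd2 v hv
    refine ⟨V_mem v, ?_, ?_⟩
    · exact (comm_iff actV₂ linAx_lt h1 5).2 h2
    · by_cases h0 : v = 0
      · left; rw [h0]; exact V_zero
      · have h4 : cA v = true := h4.resolve_left h0
        right
        refine ⟨(A_V_iff h1 h0).2 h4, ?_⟩
        rw [hx]
        have hlt : v ^^^ 5 < 2048 := Nat.xor_lt_two_pow (n := 11) h1 (by norm_num)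
        exact (over₂ hlt h2').1.2 h3

theorem ncard_list {S : Set Cfsg.Spor.J4} {L : List ℕ} (hS : ∀ u, u ∈ S ↔ ∃ v ∈ L, u = V v)
    (hlt : ∀ v ∈ L, v < 2048) (hnd : L.Nodup) : S.ncard = L.length := by
  classical
  have h : S = (fun v => V v) '' (L.toFinset : Set ℕ) := by
    ext u
    rw [hS]
    constructor
    · rintro ⟨v, hv, rfl⟩
      exact ⟨v, by simpa using hv, rfl⟩
    · rintro ⟨v, hv, rfl⟩
      exact ⟨v, by simpa using hv, rfl⟩
  rw [h, Set.InjOn.ncard_image, Set.ncard_coe_finset, List.toFinset_card_of_nodup hnd]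
  intro a ha b hb hab
  exact V_inj (hlt a (by simpa using ha)) (hlt b (by simpa using hb)) hab

theorem card_Fs₁ : (Fs geo EJ w₁).ncard = 8 :=
  ncard_list (fun _ => mem_Fs₁) (by decide) (by decide)

theorem card_Fs₂ : (Fs geo EJ w₂).ncard = 32 :=
  ncard_list (fun _ => mem_Fs₂) (by decide) (by decide)

end Cfsg.Agent.H41.JM.Two
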